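import Mathlib

/-!
Symmetric designs with a doubly transitive group of automorphisms.
-/

set_option autoImplicit false
set_option linter.all false

namespace Cfsg.Agent.ItoDesign

/-- A symmetric `2-(v,k,l)` design with a faithful automorphism group that is doubly transitive on points,
transitive on blocks, and in which a block stabilizer is transitive on the block and on its complement. -/
structure Setting (G : Type*) [Group G] {P L : Type*} [MulAction G P] [MulAction G L] (I : P → L → Prop)
    (k l : ℕ) : Prop where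
  compat : ∀ (g : G) (p : P) (C : L), I (g • p) (g • C) ↔ I p C
  faithful : ∀ g : G, (∀ p : P, g • p = p) → g = 1
  card_lns : ∀ p, {C | I p C}.ncard = k
  card_pts : ∀ C, {p | I p C}.ncard = k
  card_pair : ∀ p q, p ≠ q → {C | I p C ∧ I q C}.ncard = l
  card_meet : ∀ C D, C ≠ D → {p | I p C ∧ I p D}.ncard = l
  cardL : Nat.card L = Nat.card P
  two_trans : ∀ a b c d : P, a ≠ b → c ≠ d → ∃ g : G, g • a = c ∧ g • b = d
  trans_lns : ∀ C D : L, ∃ g : G, g • C = D
  trans_in : ∀ C a b, I a C → I b C → ∃ g : G, g • C = C ∧ g • a = b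
  trans_out : ∀ C a b, ¬ I a C → ¬ I b C → ∃ g : G, g • C = C ∧ g • a = b
  l_pos : 1 ≤ l
  l_lt : l < k
  k_add_two_le : k + 2 ≤ Nat.card P
  param : k * (k - 1) = l * (Nat.card P - 1)

namespace Setting

variable {G P L : Type*} [Group G] [MulAction G P] [MulAction G L] {I : P → L → Prop} {k l : ℕ}
  (h : Setting G I k l)
include h

theorem two_le : 2 ≤ k := by have := h.l_pos; have := h.l_lt; omega

theorem smul_mem {g : G} {p : P} {C : L} (hp : I p C) : I (g • p) (g • C) := (h.compat g p C).2 hp

theorem mem_of_fix_line {g : G} {p : P} {C : L} (hC : g • C = C) (hp : I p C) : I (g • p) C := by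
  have := h.smul_mem (g := g) hp
  rwa [hC] at this

theorem mem_of_fix_point {g : G} {p : P} {C : L} (hp' : g • p = p) (hp : I p C) : I p (g • C) := by
  have := h.smul_mem (g := g) hp
  rwa [hp'] at this

theorem mem_inv {g : G} {p : P} {C : L} : I (g • p) C ↔ I p (g⁻¹ • C) := by
  conv_lhs => rw [← smul_inv_smul g C]
  exact h.compat g p _

theorem mem_fix_iff {g : G} {p : P} {C : L} (hC : g • C = C) : I (g • p) C ↔ I p C := by
  rw [h.mem_inv, inv_smul_eq_iff.2 hC.symm]

/-- `(k - l) + l * v = k * k`. -/
theorem param' : (k - l) + l * Nat.card P = k * k := by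
  have h1 := h.param
  have h2 := h.l_lt
  have h3 := h.k_add_two_le
  obtain ⟨k', rfl⟩ : ∃ k', k = k' + 1 := ⟨k - 1, by omega⟩
  obtain ⟨v, hv⟩ : ∃ v, Nat.card P = v + 1 := ⟨Nat.card P - 1, by omega⟩
  rw [hv] at h1 ⊢
  simp only [add_tsub_cancel_right] at h1
  rw [mul_add, mul_add, mul_one, mul_one, ← h1]
  omega

/-- `l * (v - k) = (k - 1) * (k - l)`. -/
theorem param'' : l * (Nat.card P - k) = (k - 1) * (k - l) := by
  have h1 := h.param'
  have h2 := h.l_lt
  have h3 := h.k_add_two_le
  obtain ⟨w, hw⟩ : ∃ w, Nat.card P = k + w := ⟨Nat.card P - k, by omega⟩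
  obtain ⟨d, rfl⟩ : ∃ d, k = l + d := ⟨k - l, by omega⟩
  rw [hw] at h1 ⊢
  simp only [add_tsub_cancel_left] at h1 ⊢
  obtain ⟨e, he⟩ : ∃ e, l + d = e + 1 := ⟨l + d - 1, by omega⟩
  rw [he, add_tsub_cancel_right]
  rw [he] at h1
  nlinarith [h1, he]

variable [Finite P] [Finite L]

/-- A function on blocks is determined by its sums over the blocks through each point. -/
theorem inj [Fintype L] [∀ p C, Decidable (I p C)] (f : L → ℚ)
    (hf : ∀ p, ∑ C, (if I p C then f C else 0) = 0) : f = 0 := by
  classical
  haveI := Fintype.ofFinite P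
  have hsum : ∑ C, f C = 0 := by
    have h1 : ∑ p : P, ∑ C, (if I p C then f C else 0) = 0 := Finset.sum_eq_zero fun p _ => hf p
    rw [Finset.sum_comm] at h1
    simp only [← Finset.sum_filter, Finset.sum_const, nsmul_eq_mul] at h1
    have h2 : ∀ C, ((Finset.univ.filter fun p => I p C).card : ℚ) = k := fun C => by
      rw [← Set.ncard_coe_finset, Finset.coe_filter_univ, h.card_pts]
    simp only [h2, ← Finset.mul_sum] at h1
    exact (mul_eq_zero.1 h1).resolve_left (by have := h.two_le; exact_mod_cast (by omega : k ≠ 0))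
  funext D
  have h2 : ∀ C, (∑ p : P, if I p D then (if I p C then f C else 0) else 0)
      = (l : ℚ) * f C + (if C = D then ((k : ℚ) - l) * f C else 0) := by
    intro C
    have e : (∑ p : P, if I p D then (if I p C then f C else 0) else 0)
        = ((Finset.univ.filter fun p => I p D ∧ I p C).card : ℚ) * f C := by
      rw [← nsmul_eq_mul, ← Finset.sum_const, Finset.sum_filter]
      refine Finset.sum_congr rfl fun p _ => ?_
      by_cases hD : I p D <;> by_cases hC : I p C <;> simp [hD, hC]
    rw [e, ← Set.ncard_coe_finset, Finset.coe_filter_univ]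
    by_cases hCD : C = D
    · subst hCD
      simp only [and_self, h.card_pts, if_true]
      ring
    · rw [h.card_meet D C (Ne.symm hCD), if_neg hCD, add_zero]
  have h3 : ∑ C, ∑ p : P, (if I p D then (if I p C then f C else 0) else 0) = 0 := by
    rw [Finset.sum_comm]
    exact Finset.sum_eq_zero fun p _ => by by_cases hD : I p D <;> simp [hD, hf p]
  simp only [h2, Finset.sum_add_distrib, ← Finset.mul_sum, hsum, mul_zero, zero_add, Finset.sum_ite_eq',
    Finset.mem_univ, if_true] at h3
  refine (mul_eq_zero.1 h3).resolve_left (sub_ne_zero.2 ?_)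
  exact_mod_cast (by have := h.l_lt; omega : k ≠ l)

/-- An automorphism fixes as many points as blocks. -/
theorem fixed_eq (g : G) : {p : P | g • p = p}.ncard = {C : L | g • C = C}.ncard := by
  classical
  haveI := Fintype.ofFinite P
  haveI := Fintype.ofFinite L
  have hp : ∀ p : P, (Finset.univ.filter fun C => I p C ∧ I (g • p) C).card =
      (if g • p = p then k - l else 0) + l := by
    intro p
    rw [← Set.ncard_coe_finset, Finset.coe_filter_univ]
    split_ifs with hf
    · rw [show {C | I p C ∧ I (g • p) C} = {C | I p C} by ext C; simp [hf], h.card_lns]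
      have := h.l_lt; omega
    · rw [h.card_pair p (g • p) (Ne.symm hf), zero_add]
  have hl : ∀ C : L, (Finset.univ.filter fun p => I p C ∧ I (g • p) C).card =
      (if g • C = C then k - l else 0) + l := by
    intro C
    rw [← Set.ncard_coe_finset, Finset.coe_filter_univ]
    split_ifs with hf
    · rw [show {p | I p C ∧ I (g • p) C} = {p | I p C} by ext p; simp [h.mem_fix_iff hf], h.card_pts]
      have := h.l_lt; omega
    · rw [show {p | I p C ∧ I (g • p) C} = {p | I p C ∧ I p (g⁻¹ • C)} by ext p; simp [h.mem_inv],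
        h.card_meet C (g⁻¹ • C) (fun e => hf (inv_smul_eq_iff.1 e.symm).symm), zero_add]
  have hsum := Finset.sum_card_bipartiteAbove_eq_sum_card_bipartiteBelow
    (r := fun p C => I p C ∧ I (g • p) C) (s := (Finset.univ : Finset P)) (t := (Finset.univ : Finset L))
  simp only [Finset.bipartiteAbove, Finset.bipartiteBelow] at hsum
  rw [Finset.sum_congr rfl fun p _ => hp p, Finset.sum_congr rfl fun C _ => hl C, Finset.sum_add_distrib,
    Finset.sum_add_distrib, ← Finset.sum_filter, ← Finset.sum_filter] at hsum
  simp only [Finset.sum_const, smul_eq_mul, Finset.card_univ] at hsum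
  rw [← Nat.card_eq_fintype_card, ← Nat.card_eq_fintype_card, h.cardL, add_left_inj,
    ← Set.ncard_coe_finset, ← Set.ncard_coe_finset, Finset.coe_filter_univ, Finset.coe_filter_univ] at hsum
  exact Nat.eq_of_mul_eq_mul_right (by have := h.l_lt; omega) hsum

/-- An automorphism fixing every block is trivial. -/
theorem eq_one_of_fix_lines {g : G} (hg : ∀ C : L, g • C = C) : g = 1 := by
  refine h.faithful g fun p => ?_
  have h1 := h.fixed_eq g
  rw [show {C : L | g • C = C} = Set.univ from Set.eq_univ_of_forall hg, Set.ncard_univ, h.cardL] at h1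
  have h2 := Set.eq_of_subset_of_ncard_le (Set.subset_univ {p : P | g • p = p})
    (by rw [Set.ncard_univ, h1]) (Set.toFinite _)
  exact (Set.ext_iff.1 h2 p).2 trivial

/-- Blocks with more than `l` common points are equal. -/
theorem line_eq {C D : L} {S : Set P} (hS : ∀ p ∈ S, I p C ∧ I p D) (hc : l < S.ncard) : C = D := by
  by_contra hne
  have := Set.ncard_le_ncard (s := S) (t := {p | I p C ∧ I p D}) hS (Set.toFinite _)
  rw [h.card_meet C D hne] at this
  omega

/-- The stabilizer of a block is transitive on the other blocks. -/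
theorem trans_other (B C D : L) (hC : C ≠ B) (hD : D ≠ B) : ∃ g : G, g • B = B ∧ g • C = D := by
  classical
  haveI := Fintype.ofFinite P
  haveI := Fintype.ofFinite L
  let f : L → ℚ := fun E => if (∃ g : G, g • B = B ∧ g • C = E) then 1 else 0
  let cnt : P → ℚ := fun p => ∑ E, (if I p E then f E else 0)
  have hinv : ∀ (g : G), g • B = B → ∀ p, cnt (g • p) = cnt p := by
    intro g hg p
    refine (Fintype.sum_equiv (MulAction.toPerm g) _ _ fun E => ?_).symm
    show (if I p E then f E else 0) = if I (g • p) (g • E) then f (g • E) else 0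
    have hf : f (g • E) = f E := by
      simp only [f]
      refine if_congr ⟨?_, ?_⟩ rfl rfl
      · rintro ⟨a, haB, haC⟩
        refine ⟨g⁻¹ * a, ?_, ?_⟩
        · rw [mul_smul, haB, inv_smul_eq_iff, hg]
        · rw [mul_smul, haC, inv_smul_smul]
      · rintro ⟨a, haB, haC⟩
        exact ⟨g * a, by rw [mul_smul, haB, hg], by rw [mul_smul, haC]⟩
    rw [hf]
    by_cases hp : I p E
    · rw [if_pos hp, if_pos (h.smul_mem hp)]
    · rw [if_neg hp, if_neg (fun e => hp ((h.compat g p E).1 e))]
  obtain ⟨a, ha⟩ : ∃ a, I a B := by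
    apply Set.nonempty_of_ncard_ne_zero (s := {p | I p B})
    rw [h.card_pts]; have := h.two_le; omega
  obtain ⟨x, hx⟩ : ∃ x, ¬ I x B := by
    by_contra hc
    push Not at hc
    have := h.card_pts B
    rw [show {p | I p B} = Set.univ from Set.eq_univ_of_forall hc, Set.ncard_univ] at this
    have := h.k_add_two_le
    omega
  have hk : (k : ℚ) ≠ 0 := by have := h.two_le; exact_mod_cast (by omega : k ≠ 0)
  have hz := h.inj (fun E => f E - (cnt x / k) - (if E = B then cnt a - cnt x else 0)) fun p => by
    have e1 : (∑ E, if I p E then cnt x / k else 0) = cnt x := by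
      rw [← Finset.sum_filter, Finset.sum_const, ← Set.ncard_coe_finset, Finset.coe_filter_univ, h.card_lns,
        nsmul_eq_mul, mul_div_cancel₀ _ hk]
    have e2 : (∑ E, if I p E then (if E = B then cnt a - cnt x else 0) else 0) =
        if I p B then cnt a - cnt x else 0 := by
      rw [Finset.sum_eq_single B (fun E _ hE => by simp [hE]) (by simp)]
      simp
    have : ∀ E, (if I p E then f E - cnt x / k - (if E = B then cnt a - cnt x else 0) else 0) =
        (if I p E then f E else 0) - (if I p E then cnt x / k else 0) -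
          (if I p E then (if E = B then cnt a - cnt x else 0) else 0) := fun E => by split_ifs <;> ring
    rw [Finset.sum_congr rfl fun E _ => this E, Finset.sum_sub_distrib, Finset.sum_sub_distrib, e1, e2]
    show cnt p - cnt x - _ = 0
    by_cases hp : I p B
    · obtain ⟨g, hg, hgp⟩ := h.trans_in B a p ha hp
      rw [← hgp, hinv g hg, if_pos (hgp ▸ hp)]
      ring
    · obtain ⟨g, hg, hgp⟩ := h.trans_out B x p hx hp
      rw [← hgp, hinv g hg, if_neg (hgp ▸ hp)]
      ring
  have hC' := congrFun hz C
  have hD' := congrFun hz D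
  simp only [Pi.zero_apply, if_neg hC, if_neg hD, sub_zero] at hC' hD'
  have hfC : f C = 1 := by simp only [f]; exact if_pos ⟨1, one_smul _ _, one_smul _ _⟩
  by_contra hne
  have hfD : f D = 0 := by simp only [f]; exact if_neg hne
  linarith

end Setting

end Cfsg.Agent.ItoDesign
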