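import Mathlib

/-!
A partition of an abelian group into lines of a space of dimension at least three comes from scalars.
-/

set_option autoImplicit false
set_option linter.all false

namespace Cfsg.Agent.ItoDesign

/-- A partition of an abelian group into subgroups of order `q` with the planes of a space of dimension at
least three. -/
structure ThickPartition {V : Type*} [AddCommGroup V] {ι : Type*} (D : ι → AddSubgroup V) (q : ℕ) : Prop where
  card : ∀ i, Nat.card (D i) = q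
  cover : ∀ v, ∃ i, v ∈ D i
  disj : ∀ {i j}, i ≠ j → ∀ {v}, v ∈ D i → v ∈ D j → v = 0
  plane : ∀ {a b c}, b ≠ c → ∀ {v}, v ∈ D a → v ∈ D b ⊔ D c → v ≠ 0 → D a ≤ D b ⊔ D c
  big : ∀ a b, ∃ v, v ∉ D a ⊔ D b

namespace ThickPartition

variable {V : Type*} [AddCommGroup V] [Finite V] {ι : Type*} {D : ι → AddSubgroup V} {q : ℕ}
  (h : ThickPartition D q)
include h

theorem dir_eq {i j : ι} {v : V} (hi : v ∈ D i) (hj : v ∈ D j) (hv : v ≠ 0) : i = j :=
  by_contra fun hij => hv (h.disj hij hi hj)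

theorem card_sup {a b : ι} (hab : a ≠ b) : Nat.card (D a ⊔ D b : AddSubgroup V) = q * q := by
  rw [show q * q = Nat.card ((D a) × (D b)) by rw [Nat.card_prod, h.card, h.card]]
  symm
  refine Nat.card_eq_of_bijective (fun p => ⟨(p.1 : V) + p.2, AddSubgroup.add_mem_sup p.1.2 p.2.2⟩)
    ⟨fun p p' e => ?_, fun x => ?_⟩
  · have e' : (p.1 : V) + p.2 = p'.1 + p'.2 := congrArg Subtype.val e
    have e1 : (p.1 : V) - p'.1 = p'.2 - p.2 := by rw [sub_eq_sub_iff_add_eq_add, e', add_comm]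
    have h0 := h.disj hab ((D a).sub_mem p.1.2 p'.1.2) (e1 ▸ (D b).sub_mem p'.2.2 p.2.2)
    refine Prod.ext (Subtype.ext (sub_eq_zero.1 h0)) (Subtype.ext ?_)
    rw [h0] at e1
    exact (sub_eq_zero.1 e1.symm).symm
  · obtain ⟨y, hy, z, hz, hyz⟩ := AddSubgroup.mem_sup.1 x.2
    exact ⟨(⟨y, hy⟩, ⟨z, hz⟩), Subtype.ext hyz⟩

theorem sup_eq {a b c d : ι} (hab : a ≠ b) (hcd : c ≠ d) (hle : D a ⊔ D b ≤ D c ⊔ D d) : D a ⊔ D b = D c ⊔ D d := by
  refine SetLike.coe_injective (Set.eq_of_subset_of_ncard_le hle ?_ (Set.toFinite _))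
  rw [← Nat.card_coe_set_eq, ← Nat.card_coe_set_eq]
  exact le_of_eq ((h.card_sup hcd).trans (h.card_sup hab).symm)

/-- The plane of `D a` and an element outside it. -/
theorem eq_plane {a b c : ι} {v : V} (hv : v ∈ D b) (hva : v ∉ D a) (hvc : v ∈ D a ⊔ D c) :
    D a ⊔ D b = D a ⊔ D c := by
  have hab : a ≠ b := fun e => hva (e ▸ hv)
  by_cases hac : a = c
  · subst hac; rw [sup_idem] at hvc; exact absurd hvc hva
  refine h.sup_eq hab hac (sup_le le_sup_left (h.plane hac hv hvc fun e => hva (e ▸ (D a).zero_mem)))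

set_option maxHeartbeats 800000 in
/-- Scalars exist. -/
theorem exists_scalar {a : ι} {u w : V} (hu : u ∈ D a) (hw : w ∈ D a) (hu0 : u ≠ 0) :
    ∃ φ : V →+ V, (∀ i, ∀ v ∈ D i, φ v ∈ D i) ∧ φ u = w := by
  classical
  -- the defining property of the image of an element outside `D a`
  let P : V → V → Prop := fun v x => (∀ i, v ∈ D i → x ∈ D i) ∧ (∀ i, v - u ∈ D i → x - w ∈ D i)
  have hsub : ∀ {v}, v ∉ D a → v - u ∉ D a := fun {v} hv e => hv (by
    simpa using (D a).add_mem e hu)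
  have hne0 : ∀ {v}, v ∉ D a → v ≠ 0 := fun {v} hv e => hv (e ▸ (D a).zero_mem)
  have hbc : ∀ {v b c}, v ∉ D a → v ∈ D b → v - u ∈ D c → b ≠ c := fun {v b c} hv hb hc e => hv (by
    subst e
    have hub : u ∈ D b := by simpa using (D b).sub_mem hb hc
    rw [h.dir_eq hu hub hu0]; exact hb)
  have hP : ∀ v, v ∉ D a → ∃ x, P v x := by
    intro v hv
    obtain ⟨b, hb⟩ := h.cover v
    obtain ⟨c, hc⟩ := h.cover (v - u)
    have hle := h.plane (hbc hv hb hc) hu
      (by simpa using (D b ⊔ D c).sub_mem (AddSubgroup.mem_sup_left hb) (AddSubgroup.mem_sup_right hc)) hu0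
    obtain ⟨x, hx, y, hy, hxy⟩ := AddSubgroup.mem_sup.1 (hle hw)
    refine ⟨x, fun i hi => ?_, fun i hi => ?_⟩
    · rwa [h.dir_eq hi hb (hne0 hv)]
    · rw [h.dir_eq hi hc (hne0 (hsub hv)), show x - w = -y by rw [← hxy]; abel]
      exact (D c).neg_mem hy
  choose! f hf using hP
  have hfD : ∀ {v i}, v ∉ D a → v ∈ D i → f v ∈ D i := fun {v i} hv hi => (hf v hv).1 i hi
  -- differences
  have hdiff : ∀ {v v' b e}, v ∉ D a → v' ∉ D a → v ∈ D b → v' ∉ D a ⊔ D b → v - v' ∈ D e →
      f v - f v' ∈ D e := by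
    intro v v' b e hv hv' hb hind he
    obtain ⟨b', hb'⟩ := h.cover v'
    obtain ⟨c, hc⟩ := h.cover (v - u)
    obtain ⟨c', hc'⟩ := h.cover (v' - u)
    have hx1 : f v - f v' ∈ D b ⊔ D b' := (D b ⊔ D b').sub_mem
      (AddSubgroup.mem_sup_left (hfD hv hb)) (AddSubgroup.mem_sup_right (hfD hv' hb'))
    have hxe : f v - f v' = (f v - w) - (f v' - w) := by abel
    have hve : v - v' = (v - u) - (v' - u) := by abel
    have hvv : v - v' ≠ 0 := fun e' => hind (AddSubgroup.mem_sup_right (sub_eq_zero.1 e' ▸ hb))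
    by_cases hcc : c = c'
    · subst hcc
      rw [h.dir_eq he (hve ▸ (D c).sub_mem hc hc' : v - v' ∈ D c) hvv, hxe]
      exact (D c).sub_mem ((hf v hv).2 c hc) ((hf v' hv').2 c hc')
    have hx2 : f v - f v' ∈ D c ⊔ D c' := hxe ▸ (D c ⊔ D c').sub_mem
      (AddSubgroup.mem_sup_left ((hf v hv).2 c hc)) (AddSubgroup.mem_sup_right ((hf v' hv').2 c' hc'))
    by_contra hx
    obtain ⟨y, hy⟩ := h.cover (f v - f v')
    have hy0 : f v - f v' ≠ 0 := fun e' => hx (e' ▸ (D e).zero_mem)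
    have hey : e ≠ y := fun e' => hx (e' ▸ hy)
    have hbb' : b ≠ b' := fun e' => hind (AddSubgroup.mem_sup_right (e' ▸ hb'))
    have e1 := h.sup_eq hey hbb' (sup_le
      (h.plane hbb' he ((D b ⊔ D b').sub_mem (AddSubgroup.mem_sup_left hb) (AddSubgroup.mem_sup_right hb')) hvv)
      (h.plane hbb' hy hx1 hy0))
    have e2 := h.sup_eq hey hcc (sup_le
      (h.plane hcc he (hve ▸ (D c ⊔ D c').sub_mem (AddSubgroup.mem_sup_left hc) (AddSubgroup.mem_sup_right hc')) hvv)
      (h.plane hcc hy hx2 hy0))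
    have huP : u ∈ D b ⊔ D b' := by
      have h1 : v - u ∈ D b ⊔ D b' := by
        rw [← e1, e2]; exact AddSubgroup.mem_sup_left hc
      simpa using (D b ⊔ D b').sub_mem (AddSubgroup.mem_sup_left hb) h1
    have hab : a ≠ b := fun e' => hv (e' ▸ hb)
    have e3 := h.sup_eq hab hbb' (sup_le (h.plane hbb' hu huP hu0) le_sup_left)
    exact hind (e3 ▸ AddSubgroup.mem_sup_right hb')
  -- additivity for independent elements
  have hadd1 : ∀ {v v' b}, v ∉ D a → v' ∉ D a → v ∈ D b → v' ∉ D a ⊔ D b → f (v + v') = f v + f v' := by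
    intro v v' b hv hv' hb hind
    obtain ⟨b', hb'⟩ := h.cover v'
    obtain ⟨s, hs⟩ := h.cover (v + v')
    have hsum : v + v' ∉ D a := fun e => hind (by
      simpa using (D a ⊔ D b).sub_mem (AddSubgroup.mem_sup_left e) (AddSubgroup.mem_sup_right hb))
    have hind' : v ∉ D a ⊔ D b' := fun e => hind (by
      rw [h.eq_plane hb hv e]; exact AddSubgroup.mem_sup_right hb')
    have i1 : v' ∉ D a ⊔ D s := fun e => hind (by
      have h1 : v ∈ D a ⊔ D s := by
        simpa using (D a ⊔ D s).sub_mem (AddSubgroup.mem_sup_right hs) e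
      rwa [h.eq_plane hb hv h1])
    have i2 : v ∉ D a ⊔ D s := fun e => hind' (by
      have h1 : v' ∈ D a ⊔ D s := by
        simpa using (D a ⊔ D s).sub_mem (AddSubgroup.mem_sup_right hs) e
      rwa [h.eq_plane hb' hv' h1])
    have d1 := hdiff hsum hv' hs i1 (show v + v' - v' ∈ D b by simpa using hb)
    have d2 := hdiff hsum hv hs i2 (show v + v' - v ∈ D b' by simpa using hb')
    have hbb' : b ≠ b' := fun e' => hind (AddSubgroup.mem_sup_right (e' ▸ hb'))
    have h0 : f (v + v') - f v - f v' = 0 := h.disj hbb'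
      (by rw [show f (v + v') - f v - f v' = (f (v + v') - f v') - f v by abel]
          exact (D b).sub_mem d1 (hfD hv hb))
      ((D b').sub_mem d2 (hfD hv' hb'))
    rw [sub_sub, sub_eq_zero] at h0
    exact h0
  -- elements of a common plane through `D a`
  have hplane : ∀ {v v' b z}, v ∉ D a → v' ∉ D a → v ∈ D b → v' ∈ D a ⊔ D b → z ∉ D a ⊔ D b →
      f (v + v' + z) = f v + f v' + f z := by
    intro v v' b z hv hv' hb hin hz
    obtain ⟨b', hb'⟩ := h.cover v'
    have hzA : z ∉ D a := fun e => hz (AddSubgroup.mem_sup_left e)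
    have h1 : v' + z ∉ D a ⊔ D b := fun e => hz (by simpa using (D a ⊔ D b).sub_mem e hin)
    have e1 := hadd1 hv (fun e => h1 (AddSubgroup.mem_sup_left e)) hb h1
    have e2 := hadd1 hv' hzA hb' (by rw [h.eq_plane hb' hv' hin]; exact hz)
    rw [add_assoc, e1, e2, add_assoc]
  have hout : ∀ {v}, v ∈ D a → ∀ {z}, z ∉ D a → v + z ∉ D a := fun {v} hv {z} hz e => hz (by
    simpa using (D a).sub_mem e hv)
  have hindep1 : ∀ {v z z' b}, v ∈ D a → z ∉ D a → z' ∉ D a → z ∈ D b → z' ∉ D a ⊔ D b →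
      f (v + z) - f z = f (v + z') - f z' := by
    intro v z z' b hv hz hz' hb hind
    obtain ⟨b', hb'⟩ := h.cover z'
    obtain ⟨s, hs⟩ := h.cover (v + z)
    obtain ⟨s', hs'⟩ := h.cover (v + z')
    have i1 : z' ∉ D a ⊔ D s := fun e => hind (by
      have h1 : z ∈ D a ⊔ D s := by
        simpa using (D a ⊔ D s).sub_mem (AddSubgroup.mem_sup_right hs) (AddSubgroup.mem_sup_left hv)
      rwa [h.eq_plane hb hz h1])
    have hind' : z ∉ D a ⊔ D b' := fun e => hind (by
      rw [h.eq_plane hb hz e]; exact AddSubgroup.mem_sup_right hb')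
    have i2 : z ∉ D a ⊔ D s' := fun e => hind' (by
      have h1 : z' ∈ D a ⊔ D s' := by
        simpa using (D a ⊔ D s').sub_mem (AddSubgroup.mem_sup_right hs') (AddSubgroup.mem_sup_left hv)
      rwa [h.eq_plane hb' hz' h1])
    have e1 := hadd1 (hout hv hz) hz' hs i1
    have e2 := hadd1 (hout hv hz') hz hs' i2
    rw [show v + z' + z = v + z + z' by abel, e1] at e2
    rw [sub_eq_sub_iff_add_eq_add]
    exact e2
  have hindep : ∀ {v z z'}, v ∈ D a → z ∉ D a → z' ∉ D a → f (v + z) - f z = f (v + z') - f z' := by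
    intro v z z' hv hz hz'
    obtain ⟨b, hb⟩ := h.cover z
    by_cases hind : z' ∈ D a ⊔ D b
    · obtain ⟨y, hy⟩ := h.big a b
      obtain ⟨b', hb'⟩ := h.cover z'
      have hyA : y ∉ D a := fun e => hy (AddSubgroup.mem_sup_left e)
      rw [hindep1 hv hz hyA hb hy, hindep1 hv hz' hyA hb' (by rw [h.eq_plane hb' hz' hind]; exact hy)]
    · exact hindep1 hv hz hz' hb hind
  obtain ⟨z₀, hz₀'⟩ := h.big a a
  have hz₀ : z₀ ∉ D a := fun e => hz₀' (AddSubgroup.mem_sup_left e)
  let φ : V → V := fun v => if v ∈ D a then f (v + z₀) - f z₀ else f v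
  have hφin : ∀ {v z}, v ∈ D a → z ∉ D a → φ v = f (v + z) - f z := fun {v z} hv hz => by
    simp only [φ, if_pos hv]; exact hindep hv hz₀ hz
  have hφout : ∀ {v}, v ∉ D a → φ v = f v := fun {v} hv => if_neg hv
  have hmix : ∀ {v v'}, v ∈ D a → v' ∉ D a → φ (v + v') = φ v + φ v' := fun {v v'} hv hv' => by
    rw [hφout (hout hv hv'), hφout hv', hφin hv hv']; abel
  have hφadd : ∀ v v', φ (v + v') = φ v + φ v' := by
    intro v v'
    by_cases hv : v ∈ D a <;> by_cases hv' : v' ∈ D a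
    · rw [hφin ((D a).add_mem hv hv') hz₀, hφin hv (hout hv' hz₀), hφin hv' hz₀, add_assoc]
      abel
    · exact hmix hv hv'
    · rw [add_comm, hmix hv' hv, add_comm]
    · obtain ⟨b, hb⟩ := h.cover v
      by_cases hin : v' ∈ D a ⊔ D b
      · obtain ⟨z, hz⟩ := h.big a b
        have hzA : z ∉ D a := fun e => hz (AddSubgroup.mem_sup_left e)
        have e1 := hplane hv hv' hb hin hz
        rw [hφout hv, hφout hv']
        by_cases hs : v + v' ∈ D a
        · rw [hφin hs hzA, e1]; abel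
        · obtain ⟨s, hs'⟩ := h.cover (v + v')
          have e2 := hadd1 hs hzA hs' (by
            rw [h.eq_plane hs' hs ((D a ⊔ D b).add_mem (AddSubgroup.mem_sup_right hb) hin)]; exact hz)
          rw [hφout hs]
          rw [e2] at e1
          exact add_right_cancel e1
      · have hs : v + v' ∉ D a := fun e => hin (by
          simpa using (D a ⊔ D b).sub_mem (AddSubgroup.mem_sup_left e) (AddSubgroup.mem_sup_right hb))
        rw [hφout hs, hφout hv, hφout hv', hadd1 hv hv' hb hin]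
  have hφmem : ∀ i, ∀ v ∈ D i, φ v ∈ D i := by
    intro i v hv
    by_cases hvA : v ∈ D a
    · by_cases hv0 : v = 0
      · have := hφadd 0 0
        rw [add_zero, left_eq_add] at this
        rw [hv0, this]
        exact (D i).zero_mem
      rw [h.dir_eq hv hvA hv0]
      obtain ⟨b, hb⟩ := h.cover z₀
      obtain ⟨z, hz⟩ := h.big a b
      have hzA : z ∉ D a := fun e => hz (AddSubgroup.mem_sup_left e)
      obtain ⟨c, hc⟩ := h.cover z
      have key : ∀ {y s}, y ∉ D a → y ∈ D s → φ v ∈ D a ⊔ D s := by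
        intro y s hy hs
        obtain ⟨r, hr⟩ := h.cover (v + y)
        rw [hφin hvA hy]
        refine (D a ⊔ D s).sub_mem ?_ (AddSubgroup.mem_sup_right (hfD hy hs))
        rw [← h.eq_plane hr (hout hvA hy) ((D a ⊔ D s).add_mem (AddSubgroup.mem_sup_left hvA) (AddSubgroup.mem_sup_right hs))]
        exact AddSubgroup.mem_sup_right (hfD (hout hvA hy) hr)
      by_contra hφ
      obtain ⟨r, hr⟩ := h.cover (φ v)
      exact hz (((h.eq_plane hr hφ (key hzA hc)).symm.trans (h.eq_plane hr hφ (key hz₀ hb))) ▸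
        AddSubgroup.mem_sup_right hc)
    · rw [hφout hvA]; exact hfD hvA hv
  refine ⟨AddMonoidHom.mk' φ hφadd, hφmem, ?_⟩
  show φ u = w
  obtain ⟨b, hb⟩ := h.cover z₀
  have h1 : (f (u + z₀) - w) - f z₀ ∈ D b :=
    (D b).sub_mem ((hf _ (hout hu hz₀)).2 b (by simpa using hb)) (hfD hz₀ hb)
  have h2 : φ u - w ∈ D a := (D a).sub_mem (hφmem a u hu) hw
  rw [hφin hu hz₀, show f (u + z₀) - f z₀ - w = f (u + z₀) - w - f z₀ by abel] at h2
  have := h.disj (show a ≠ b from fun e => hz₀ (e ▸ hb)) h2 h1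
  rw [hφin hu hz₀]
  rw [sub_right_comm, sub_eq_zero] at this
  exact this

end ThickPartition

end Cfsg.Agent.ItoDesign
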