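import Cfsg.Agent.ItoDesign.Space
import Cfsg.Agent.ItoDesign.Partition
import Cfsg.Agent.OWagner.Coord

/-!
The design is the design of points and hyperplanes of a projective space.
-/

set_option autoImplicit false
set_option linter.all false

namespace Cfsg.Agent.ItoDesign

namespace Unf

variable {G P L : Type*} [Group G] [MulAction G P] [MulAction G L] {I : P → L → Prop} {k l : ℕ}
  (h : Unf G I k l) [Finite G] [Finite P] [Finite L]
include h

theorem exists_coord_plane (hl : l = 1) :
    ∃ (F : Type) (_ : Field F) (_ : Fintype F) (φ : P ≃ Projectivization F (Fin 3 → F)),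
      ∀ C : L, ∃ f : Module.Dual F (Fin 3 → F), f ≠ 0 ∧ ∀ p, I p C ↔ f (φ p).rep = 0 := by
  classical
  subst hl
  obtain ⟨n, hn⟩ : ∃ n, n = h.q := ⟨_, rfl⟩
  have hk : k = n + 1 := by have := h.k_eq; omega
  have hn2 : 2 ≤ n := hn ▸ h.two_le_q
  have hcardP : Nat.card P = n ^ 2 + n + 1 := by
    have hL : 0 < Nat.card L := by rw [h.cardL]; have := h.k_add_two_le; omega
    obtain ⟨B⟩ := (Nat.card_pos_iff.1 hL).1
    have h1 := Set.ncard_add_ncard_compl {p | I p B} (Set.toFinite _) (Set.toFinite _)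
    rw [h.card_pts, show {p | I p B}ᶜ = {p | ¬ I p B} from rfl, h.card_off, ← hn] at h1
    subst hk
    rw [← h1, show n + 1 - 1 = n by omega, pow_two]; ring
  have hplane : OWagner.IsPlane I n :=
    { two_le := hn2
      join := fun p q => by
        by_cases hpq : p = q
        · subst hpq
          obtain ⟨C, hC⟩ : ∃ C, I p C := by
            apply Set.nonempty_of_ncard_ne_zero (s := {C | I p C})
            rw [h.card_lns]; omega
          exact ⟨C, hC, hC⟩
        · exact h.exists_line p q hpq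
      meet := fun C D => by
        by_cases hCD : C = D
        · subst hCD
          obtain ⟨p, hp⟩ : ∃ p, I p C := by
            apply Set.nonempty_of_ncard_ne_zero (s := {p | I p C})
            rw [h.card_pts]; omega
          exact ⟨p, hp, hp⟩
        · apply Set.nonempty_of_ncard_ne_zero (s := {p | I p C ∧ I p D})
          rw [h.card_meet C D hCD]; omega
      unique := fun {p q C D} h1 h2 h3 h4 => by
        by_contra hc
        push Not at hc
        exact absurd ((Set.ncard_le_one (Set.toFinite _)).1 (le_of_eq (h.card_meet C D hc.2)) p ⟨h1, h3⟩ q ⟨h2, h4⟩)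
          hc.1
      card_pts := fun C => by rw [h.card_pts, hk]
      card_lns := fun p => by rw [h.card_lns, hk]
      cardP := hcardP
      cardL := by rw [h.cardL, hcardP] }
  have hset : OWagner.Setting G I n :=
    { toIsPlane := hplane, compat := h.compat, faithful := h.faithful }
  obtain ⟨F, _, _, v, hv, hF, hinj, hlines⟩ := hset.exists_coord
    (fun c C m hc hcm hml A B hA hAc hB hBc => hset.elation_transitive h.two_trans hc hcm hml hA hAc hB hBc)
  have hrank : Module.finrank F (Fin 3 → F) = 3 := by simp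
  have hcard : Nat.card (Projectivization F (Fin 3 → F)) = n ^ 2 + n + 1 := by
    rw [Projectivization.card_of_finrank F (Fin 3 → F) hrank, Nat.card_eq_fintype_card, hF]
    simp [Finset.sum_range_succ]
    ring
  haveI : Finite (Projectivization F (Fin 3 → F)) := inferInstance
  let φ : P ≃ Projectivization F (Fin 3 → F) := Equiv.ofBijective _
    ((Nat.bijective_iff_injective_and_card _).2 ⟨hinj, by rw [hcard, hcardP]⟩)
  refine ⟨F, inferInstance, inferInstance, φ, fun C => ?_⟩
  obtain ⟨c, hc, hcl⟩ := hlines C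
  let f : Module.Dual F (Fin 3 → F) :=
    c 0 • LinearMap.proj 0 + c 1 • LinearMap.proj 1 + c 2 • LinearMap.proj 2
  refine ⟨f, fun e => hc (funext fun i => ?_), fun p => ?_⟩
  · have := congrArg (fun g : Module.Dual F (Fin 3 → F) => g (Pi.single i 1)) e
    fin_cases i <;> simpa [f] using this
  · obtain ⟨a, ha⟩ := (Projectivization.mk_eq_mk_iff F _ _ (φ p).rep_nonzero (hv p)).1 ((φ p).mk_rep.trans rfl)
    refine (hcl p).trans ?_
    rw [show (c 0 * v p 0 + c 1 * v p 1 + c 2 * v p 2) = f (v p) from by simp [f], ← ha, Units.smul_def,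
      map_smul, smul_eq_zero]
    simp

set_option maxHeartbeats 1000000 in
theorem exists_coord_big (hl : 2 ≤ l) :
    ∃ (m : ℕ) (F : Type) (_ : Field F) (_ : Fintype F) (φ : P ≃ Projectivization F (Fin (m + 1) → F)),
      2 ≤ m ∧ ∀ C : L, ∃ f : Module.Dual F (Fin (m + 1) → F), f ≠ 0 ∧ ∀ p, I p C ↔ f (φ p).rep = 0 := by
  classical
  have hL : 0 < Nat.card L := by rw [h.cardL]; have := h.k_add_two_le; omega
  obtain ⟨B⟩ := (Nat.card_pos_iff.1 hL).1
  obtain ⟨x₀, hx₀⟩ := h.exists_off B
  let T : Subgroup G := h.elGrp B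
  letI : CommGroup T :=
    { (inferInstance : Group T) with mul_comm := fun g f => Subtype.ext (h.el_comm g.2 f.2) }
  let V := Additive T
  haveI : Finite V := inferInstanceAs (Finite T)
  let g' : V → G := fun v => ((Additive.toMul v : T) : G)
  have hg'mem : ∀ v, g' v ∈ h.elGrp B := fun v => (Additive.toMul v).2
  let D : {p // I p B} → AddSubgroup V := fun a =>
    { carrier := {v | g' v ∈ h.dirGrp B a.1}
      zero_mem' := (h.dirGrp B a.1).one_mem
      add_mem' := fun hv hw => (h.dirGrp B a.1).mul_mem hv hw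
      neg_mem' := fun hv => (h.dirGrp B a.1).inv_mem hv }
  have hg'inj : Function.Injective g' := fun v w e => Additive.toMul.injective (Subtype.ext e)
  have hcardD : ∀ a, Nat.card (D a) = h.q := fun a => by
    rw [← h.card_dir a.2]
    exact Nat.card_congr
      { toFun := fun v => ⟨g' v.1, v.2⟩
        invFun := fun g => ⟨Additive.ofMul (⟨g.1, g.2.1⟩ : T), g.2⟩
        left_inv := fun v => rfl
        right_inv := fun g => rfl }
  have hk := h.k_eq
  have hq2 := h.two_le_q
  have hlt := h.l_lt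
  have hdq : h.q < k - l := by
    obtain ⟨l', rfl⟩ : ∃ l', l = l' + 2 := ⟨l - 2, by omega⟩
    have : 2 * (l' + 1) ≤ h.q * (l' + 1) := Nat.mul_le_mul_right _ hq2
    rw [show (l' + 2) * h.q = h.q * (l' + 1) + h.q by ring] at hk
    omega
  let orbmap : V → {p // ¬ I p B} := fun v => ⟨g' v • x₀, h.el_off (hg'mem v) hx₀⟩
  have horb : Function.Bijective orbmap := by
    constructor
    · intro v w e
      have e' : g' v • x₀ = g' w • x₀ := congrArg Subtype.val e
      refine hg'inj (inv_mul_eq_one.1 (h.el_free ((h.elGrp B).mul_mem ((h.elGrp B).inv_mem (hg'mem w)) (hg'mem v)) hx₀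
        (by rw [mul_smul, e', inv_smul_smul]))).symm
    · rintro ⟨p, hp⟩
      obtain ⟨g, hg, hgp⟩ := (h.trans_el B).1 x₀ p hx₀ hp
      exact ⟨Additive.ofMul (⟨g, hg⟩ : T), Subtype.ext hgp⟩
  have hcardV : Nat.card V = h.q * (k - l) := by
    rw [Nat.card_eq_of_bijective _ horb, ← h.card_off B]
    exact (Nat.card_coe_set_eq _)
  have hTP : ThickPartition D h.q :=
    { card := hcardD
      cover := fun v => by
        obtain ⟨a, ha, hva⟩ := h.exists_dir (hg'mem v)
        exact ⟨⟨a, ha⟩, hva⟩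
      disj := fun {i j} hij {v} hi hj => hg'inj
        (h.dir_disj i.2 j.2 (fun e => hij (Subtype.ext e)) hi hj)
      plane := fun {a b c} hbc {v} hva hvbc hv0 f hf => by
        obtain ⟨y, hy, z, hz, rfl⟩ := AddSubgroup.mem_sup.1 hvbc
        obtain ⟨f₁, hf₁, f₂, hf₂, he⟩ := h.dir_plane (g₁ := g' y) (g₂ := g' z) a.2 b.2 c.2
          (fun e => hbc (Subtype.ext e)) hy hz hva (fun e => hv0 (hg'inj e)) hf
        refine AddSubgroup.mem_sup.2 ⟨Additive.ofMul (⟨f₁, hf₁.1⟩ : T), hf₁,
          Additive.ofMul (⟨f₂, hf₂.1⟩ : T), hf₂, hg'inj he.symm⟩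
      big := fun a b => by
        by_contra hc
        push Not at hc
        have h1 : Nat.card V ≤ Nat.card (D a) * Nat.card (D b) := by
          rw [← Nat.card_prod]
          refine Nat.card_le_card_of_surjective (fun p : D a × D b => (p.1 : V) + p.2) fun v => ?_
          obtain ⟨y, hy, z, hz, hyz⟩ := AddSubgroup.mem_sup.1 (hc v)
          exact ⟨(⟨y, hy⟩, ⟨z, hz⟩), hyz⟩
        rw [hcardV, hcardD, hcardD] at h1
        have := Nat.le_of_mul_le_mul_left h1 (by omega)
        omega }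
  -- the scalars
  let K : Subring (AddMonoid.End V) :=
    { carrier := {φ | ∀ i, ∀ v ∈ D i, φ v ∈ D i}
      one_mem' := fun i v hv => hv
      mul_mem' := fun {φ ψ} hφ hψ i v hv => hφ i _ (hψ i v hv)
      add_mem' := fun {φ ψ} hφ hψ i v hv => (D i).add_mem (hφ i v hv) (hψ i v hv)
      zero_mem' := fun i v hv => (D i).zero_mem
      neg_mem' := fun {φ} hφ i v hv => (D i).neg_mem (hφ i v hv) }
  have hKinj : ∀ φ ∈ K, φ ≠ 0 → ∀ u, φ u = 0 → u = 0 := by
    intro φ hφ hφ0 u hu
    by_contra hu0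
    obtain ⟨a, ha⟩ := hTP.cover u
    have hout : ∀ v, v ∉ D a → φ v = 0 := by
      intro v hv
      obtain ⟨b, hb⟩ := hTP.cover v
      obtain ⟨c, hc⟩ := hTP.cover (u + v)
      refine hTP.disj (fun e => ?_) (hφ b v hb) (by simpa [map_add, hu] using hφ c _ hc)
      subst e
      have : u ∈ D b := by simpa using (D b).sub_mem hc hb
      exact hv (hTP.dir_eq ha this hu0 ▸ hb)
    refine hφ0 (AddMonoidHom.ext fun v => ?_)
    by_cases hv : v ∈ D a
    · obtain ⟨z, hz⟩ := hTP.big a a
      have hzA : z ∉ D a := fun e => hz (AddSubgroup.mem_sup_left e)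
      have h1 := hout (v + z) (fun e => hzA (by simpa using (D a).sub_mem e hv))
      rw [map_add, hout z hzA, add_zero] at h1
      exact h1
    · exact hout v hv
  haveI : Finite (AddMonoid.End V) :=
    Finite.of_injective (fun f : AddMonoid.End V => (f : V → V)) DFunLike.coe_injective
  haveI : Nontrivial V := Finite.one_lt_card_iff_nontrivial.1 (by
    rw [hcardV]; calc 1 < 2 * 1 := by omega
      _ ≤ h.q * (k - l) := Nat.mul_le_mul hq2 (by omega))
  haveI : Nontrivial (AddMonoid.End V) := by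
    obtain ⟨u, hu⟩ := exists_ne (0 : V)
    exact ⟨⟨1, 0, fun e => hu (DFunLike.congr_fun e u)⟩⟩
  haveI : NoZeroDivisors K := ⟨fun {a b} hab => by
    by_contra hc
    push Not at hc
    refine hc.2 (Subtype.ext (AddMonoidHom.ext fun v => ?_))
    exact hKinj a a.2 (fun e => hc.1 (Subtype.ext e)) _ (DFunLike.congr_fun (congrArg Subtype.val hab) v)⟩
  haveI : IsDomain K := NoZeroDivisors.to_isDomain K
  have hfield : IsField K := Finite.isDomain_to_isField K
  obtain ⟨F, _, _, ι, hι, hrange⟩ := OWagner.exists_small_field K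
    (fun a ha b hb => congrArg Subtype.val (hfield.mul_comm (⟨a, ha⟩ : K) ⟨b, hb⟩))
    (fun a ha ha0 => by
      obtain ⟨b, hb⟩ := hfield.mul_inv_cancel (a := (⟨a, ha⟩ : K)) (fun e => ha0 (congrArg Subtype.val e))
      exact ⟨b, b.2, congrArg Subtype.val hb⟩)
  letI : Module F V := Module.compHom V ι
  have hsmulD : ∀ (c : F) {i} {v : V}, v ∈ D i → c • v ∈ D i := fun c {i v} hv =>
    (hrange (ι c)).2 ⟨c, rfl⟩ i v hv
  have hscal : ∀ {i} {u w : V}, u ∈ D i → w ∈ D i → u ≠ 0 → ∃ c : F, c • u = w := by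
    intro i u w hu hw hu0
    obtain ⟨φ, hφ, hφu⟩ := hTP.exists_scalar hu hw hu0
    obtain ⟨c, hc⟩ := (hrange (φ : AddMonoid.End V)).1 hφ
    refine ⟨c, ?_⟩
    show ι c u = w
    rw [hc]; exact hφu
  have hex : ∀ i, ∃ u, u ∈ D i ∧ u ≠ 0 := fun i => by
    haveI : Nontrivial (D i) := Finite.one_lt_card_iff_nontrivial.1 (by rw [hcardD]; omega)
    obtain ⟨u, hu⟩ := exists_ne (0 : D i)
    exact ⟨u, u.2, fun e => hu (Subtype.ext e)⟩
  choose uu huD hu0 using hex
  obtain ⟨a₀, ha₀⟩ : ∃ a, I a B := by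
    apply Set.nonempty_of_ncard_ne_zero (s := {p | I p B})
    rw [h.card_pts]; omega
  have hcardF : Nat.card F = h.q := by
    rw [← hcardD ⟨a₀, ha₀⟩]
    refine Nat.card_eq_of_bijective (fun c => (⟨c • uu ⟨a₀, ha₀⟩, hsmulD c (huD _)⟩ : D ⟨a₀, ha₀⟩)) ⟨?_, ?_⟩
    · intro c c' e
      exact smul_left_injective F (hu0 _) (congrArg Subtype.val e)
    · rintro ⟨w, hw⟩
      obtain ⟨c, hc⟩ := hscal (huD _) hw (hu0 _)
      exact ⟨c, Subtype.ext hc⟩
  haveI : Module.Finite F V := Module.Finite.of_finite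
  let m := Module.finrank F V
  have hpow : h.q ^ m = h.q * (k - l) := by
    rw [← hcardV, Module.natCard_eq_pow_finrank (K := F) (V := V), hcardF]
  have hm : 2 ≤ m := by
    by_contra hc
    push Not at hc
    have : h.q ^ m ≤ h.q ^ 1 := Nat.pow_le_pow_right (by omega) (by omega)
    rw [hpow, pow_one] at this
    have : h.q * 2 ≤ h.q * (k - l) := Nat.mul_le_mul_left _ (by omega)
    omega
  have hrankW : Module.finrank F (F × V) = Module.finrank F (Fin (m + 1) → F) := by
    rw [Module.finrank_prod, Module.finrank_self, Module.finrank_fin_fun, add_comm]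
  let e : (F × V) ≃ₗ[F] (Fin (m + 1) → F) := LinearEquiv.ofFinrankEq _ _ hrankW
  choose τ hτ using fun p : {p // ¬ I p B} => horb.2 p
  have hτ' : ∀ (p : P) (hp : ¬ I p B), g' (τ ⟨p, hp⟩) • x₀ = p := fun p hp => congrArg Subtype.val (hτ ⟨p, hp⟩)
  let co : P → F × V := fun p => if hp : I p B then (0, uu ⟨p, hp⟩) else (1, τ ⟨p, hp⟩)
  have hco : ∀ p, co p ≠ 0 := fun p e' => by
    by_cases hp : I p B
    · simp only [co, dif_pos hp] at e'
      exact hu0 _ (congrArg Prod.snd e')
    · simp only [co, dif_neg hp] at e'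
      exact one_ne_zero (congrArg Prod.fst e')
  have heco : ∀ p, e (co p) ≠ 0 := fun p => (map_ne_zero_iff _ e.injective).2 (hco p)
  have hbij : Function.Bijective (fun p => Projectivization.mk F (e (co p)) (heco p)) := by
    constructor
    · intro p p' hpp
      obtain ⟨c, hc⟩ := (Projectivization.mk_eq_mk_iff' F _ _ (heco p) (heco p')).1 hpp
      rw [← map_smul] at hc
      have hc' := e.injective hc
      by_cases hp : I p B <;> by_cases hp' : I p' B <;> simp only [co, hp, hp', dite_true, dite_false, Prod.smul_mk, Prod.mk.injEq, smul_zero, smul_eq_mul, mul_one] at hc'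
      · exact congrArg Subtype.val (hTP.dir_eq (huD ⟨p, hp⟩) (hc'.2 ▸ hsmulD c (huD ⟨p', hp'⟩)) (hu0 _))
      · exfalso; rw [hc'.1, zero_smul] at hc'; exact hu0 _ hc'.2.symm
      · exfalso; exact zero_ne_one ((mul_zero c).symm.trans hc'.1)
      · rw [hc'.1, one_smul] at hc'
        rw [← hτ' p hp, ← hτ' p' hp', hc'.2]
    · intro w
      induction w using Projectivization.ind with
      | h w hw =>
        obtain ⟨⟨r, v⟩, rfl⟩ := e.surjective w
        by_cases hr : r = 0
        · subst hr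
          have hv : v ≠ 0 := fun e' => hw (by rw [e']; exact map_zero e)
          obtain ⟨i, hi⟩ := hTP.cover v
          obtain ⟨c, hc⟩ := hscal hi (huD i) hv
          refine ⟨i.1, (Projectivization.mk_eq_mk_iff' F _ _ _ _).2 ⟨c, ?_⟩⟩
          rw [← map_smul]
          simp [co, i.2, hc]
        · let p := g' (r⁻¹ • v) • x₀
          have hp : ¬ I p B := h.el_off (hg'mem _) hx₀
          have hτp : τ ⟨p, hp⟩ = r⁻¹ • v := horb.1 (hτ _)
          refine ⟨p, (Projectivization.mk_eq_mk_iff' F _ _ _ _).2 ⟨r⁻¹, ?_⟩⟩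
          rw [← map_smul]
          simp [co, hp, hτp, hr]
  let φ : P ≃ Projectivization F (Fin (m + 1) → F) := Equiv.ofBijective _ hbij
  have key : ∀ (f : Module.Dual F (F × V)) (p : P), (f.comp e.symm.toLinearMap) (φ p).rep = 0 ↔ f (co p) = 0 := by
    intro f p
    obtain ⟨a, ha⟩ := (Projectivization.mk_eq_mk_iff F _ _ (φ p).rep_nonzero (heco p)).1 ((φ p).mk_rep.trans rfl)
    rw [← ha, Units.smul_def]
    simp
  have mkdual : ∀ (f : Module.Dual F (F × V)), f ≠ 0 → f.comp e.symm.toLinearMap ≠ 0 := fun f hf e' => hf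
    (LinearMap.ext fun w => by simpa using LinearMap.congr_fun e' (e w))
  refine ⟨m, F, inferInstance, inferInstance, φ, hm, fun C => ?_⟩
  by_cases hCB : C = B
  · refine ⟨(LinearMap.fst F F V).comp e.symm.toLinearMap, mkdual _ (fun e' => ?_), fun p => ?_⟩
    · simpa using LinearMap.congr_fun e' ((1 : F), (0 : V))
    · rw [key, hCB]
      by_cases hp : I p B <;> simp [co, hp]
  obtain ⟨x, hxC, hx⟩ : ∃ x, I x C ∧ ¬ I x B := by
    by_contra hc
    push Not at hc
    exact hCB (h.line_eq (S := {p | I p C}) (fun p hp => ⟨hp, hc p hp⟩) (by rw [h.card_pts]; exact h.l_lt))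
  have hdir : ∀ {v : V} {i}, v ∈ D i → v ≠ 0 → (I (g' v • x) C ↔ I i.1 C) := by
    intro v i hi hv
    constructor
    · intro hgC
      have hmove : x ≠ g' v • x := fun e' => hv (hg'inj (h.el_free (hg'mem v) hx e'.symm))
      exact h.ln_perm (ne_of_off hx i.2) hmove (h.dir_ln hi x) C hxC hgC
    · exact fun hiC => h.dir_ln hi x C hxC hiC
  have hK0 : ∀ v : V, g' v • C = C ↔ I (g' v • x) C := by
    intro v
    refine ⟨fun e' => h.mem_of_fix_line e' hxC, fun hv => ?_⟩
    by_cases hv0 : v = 0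
    · subst hv0; exact one_smul G C
    obtain ⟨i, hi⟩ := hTP.cover v
    exact hi.2 C ((hdir hi hv0).1 hv)
  let K0 : Submodule F V :=
    { carrier := {v | g' v • C = C}
      zero_mem' := one_smul G C
      add_mem' := fun {v w} (hv : g' v • C = C) (hw : g' w • C = C) => by
        show (g' v * g' w) • C = C
        rw [mul_smul, hw, hv]
      smul_mem' := fun c v (hv : g' v • C = C) => by
        show g' (c • v) • C = C
        by_cases hv0 : v = 0
        · rw [hv0, smul_zero]; exact one_smul G C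
        obtain ⟨i, hi⟩ := hTP.cover v
        exact (hsmulD c hi).2 C ((hdir hi hv0).1 ((hK0 v).1 hv)) }
  have hxτ : ∀ (p : P) (hp : ¬ I p B), g' (τ ⟨p, hp⟩ - τ ⟨x, hx⟩) • x = p := by
    intro p hp
    have e1 : g' (τ ⟨p, hp⟩ - τ ⟨x, hx⟩) = g' (τ ⟨p, hp⟩) * (g' (τ ⟨x, hx⟩))⁻¹ :=
      (congrArg g' (sub_eq_add_neg (τ ⟨p, hp⟩) (τ ⟨x, hx⟩))).trans rfl
    rw [e1, mul_smul, inv_smul_eq_iff.2 (hτ' x hx).symm, hτ']
  have hcardK0 : Nat.card K0 = k - l := by
    have h1 : {p | I p C ∧ ¬ I p B}.ncard = k - l := by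
      rw [show {p | I p C ∧ ¬ I p B} = {p | I p C} \ {p | I p C ∧ I p B} by ext p; simp only [Set.mem_setOf_eq, Set.mem_diff]; tauto,
        Set.ncard_diff (fun p hp => hp.1) (Set.toFinite _), h.card_pts, h.card_meet C B hCB]
    rw [← h1, ← Nat.card_coe_set_eq]
    refine Nat.card_eq_of_bijective (fun v => ⟨g' v.1 • x, (hK0 _).1 v.2, h.el_off (hg'mem _) hx⟩) ⟨?_, ?_⟩
    · intro v w e'
      have e'' : g' v.1 • x = g' w.1 • x := congrArg Subtype.val e'
      refine Subtype.ext (hg'inj (inv_mul_eq_one.1 (h.el_free ((h.elGrp B).mul_mem ((h.elGrp B).inv_mem (hg'mem w.1)) (hg'mem v.1)) hx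
        (by rw [mul_smul, e'', inv_smul_smul]))).symm)
    · rintro ⟨p, hpC, hpB⟩
      have := hxτ p hpB
      exact ⟨⟨_, (hK0 _).2 (by rw [this]; exact hpC)⟩, Subtype.ext this⟩
  have hrank : Module.finrank F (V ⧸ K0) = 1 := by
    have h1 := Submodule.finrank_quotient_add_finrank K0
    have h2 : h.q ^ Module.finrank F K0 = k - l := by
      rw [← hcardF, ← Module.natCard_eq_pow_finrank (K := F) (V := K0), hcardK0]
    have h3 : h.q ^ (Module.finrank F K0 + 1) = h.q ^ m := by rw [pow_succ, h2, hpow, mul_comm]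
    have := Nat.pow_right_injective hq2 h3
    omega
  let f₀ : Module.Dual F V :=
    (LinearEquiv.ofFinrankEq (V ⧸ K0) F (by rw [hrank, Module.finrank_self])).toLinearMap.comp K0.mkQ
  have hf₀ : ∀ v, f₀ v = 0 ↔ g' v • C = C := fun v => by
    simp only [f₀, LinearMap.comp_apply, LinearEquiv.coe_coe, LinearEquiv.map_eq_zero_iff]
    exact Submodule.Quotient.mk_eq_zero K0
  refine ⟨((f₀.comp (LinearMap.snd F F V)) - (f₀ (τ ⟨x, hx⟩)) • LinearMap.fst F F V).comp e.symm.toLinearMap,
    mkdual _ (fun e' => ?_), fun p => ?_⟩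
  · have h1 : ∀ v, f₀ v = 0 := fun v => by simpa using LinearMap.congr_fun e' ((0 : F), v)
    have h2 : K0 = ⊤ := eq_top_iff.2 fun v _ => (hf₀ v).1 (h1 v)
    rw [h2, Nat.card_congr Submodule.topEquiv.toEquiv, hcardV] at hcardK0
    have : 2 * (k - l) ≤ h.q * (k - l) := Nat.mul_le_mul_right _ hq2
    omega
  · rw [key]
    by_cases hp : I p B
    · simp only [co, hp, dite_true, LinearMap.sub_apply, LinearMap.comp_apply, LinearMap.snd_apply,
        LinearMap.smul_apply, LinearMap.fst_apply, smul_zero, sub_zero, hf₀, hK0]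
      exact (hdir (huD ⟨p, hp⟩) (hu0 _)).symm
    · simp only [co, hp, dite_false, LinearMap.sub_apply, LinearMap.comp_apply, LinearMap.snd_apply,
        LinearMap.smul_apply, LinearMap.fst_apply, smul_eq_mul, mul_one]
      rw [← map_sub, hf₀, hK0, hxτ p hp]

theorem exists_coord :
    ∃ (m : ℕ) (F : Type) (_ : Field F) (_ : Fintype F) (φ : P ≃ Projectivization F (Fin (m + 1) → F)),
      2 ≤ m ∧ ∀ C : L, ∃ f : Module.Dual F (Fin (m + 1) → F), f ≠ 0 ∧ ∀ p, I p C ↔ f (φ p).rep = 0 := by
  rcases Nat.lt_or_ge l 2 with hl | hl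
  · obtain ⟨F, _, _, φ, hφ⟩ := h.exists_coord_plane (by have := h.l_pos; omega)
    exact ⟨2, F, inferInstance, inferInstance, φ, le_refl _, hφ⟩
  · exact h.exists_coord_big hl

end Unf

end Cfsg.Agent.ItoDesign
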