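import Cfsg.Agent.ItoDesign.Basic
import Cfsg.Agent.CharInd.Frobenius

/-!
Elations of a symmetric design: the elements fixing a block pointwise and no further point.
-/

set_option autoImplicit false
set_option linter.all false

namespace Cfsg.Agent.ItoDesign

/-- A set invariant under an action all of whose orbits on it have `t` elements has cardinality divisible
by `t`. -/
theorem dvd_ncard {T X : Type*} [Group T] [MulAction T X] {t : ℕ} (S : Set X) [Finite X]
    (hS : ∀ (g : T), ∀ x ∈ S, g • x ∈ S) (ht : ∀ x ∈ S, (MulAction.orbit T x).ncard = t) : t ∣ S.ncard := by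
  induction hm : S.ncard using Nat.strong_induction_on generalizing S with
  | _ m ih =>
    by_cases hne : S = ∅
    · subst hne; simp at hm; simp [← hm]
    obtain ⟨x, hx⟩ := Set.nonempty_iff_ne_empty.2 hne
    have hsub : MulAction.orbit T x ⊆ S := by rintro y ⟨g, rfl⟩; exact hS g x hx
    have hsplit := Set.ncard_diff_add_ncard_of_subset hsub (Set.toFinite S)
    have hox : x ∈ MulAction.orbit T x := MulAction.mem_orbit_self x
    have hpos : 0 < (MulAction.orbit T x).ncard := (Set.ncard_pos (Set.toFinite _)).2 ⟨x, hox⟩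
    have := ih (S \ MulAction.orbit T x).ncard (by omega) (S \ MulAction.orbit T x)
      (fun g y hy => ⟨hS g y hy.1, fun e => hy.2 (by
        have := MulAction.mem_orbit_of_mem_orbit g⁻¹ e
        rwa [inv_smul_smul] at this)⟩)
      (fun y hy => ht y hy.1) rfl
    rw [ht x hx] at hsplit
    obtain ⟨q, hq⟩ := this
    exact ⟨q + 1, by rw [← hm, ← hsplit, hq]; ring⟩

section

variable {G P L : Type*} [Group G] [MulAction G P]

/-- The pointwise stabilizer of a block. -/
def axGrp (I : P → L → Prop) (C : L) : Subgroup G where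
  carrier := {g | ∀ p, I p C → g • p = p}
  one_mem' := fun p _ => one_smul G p
  mul_mem' := fun {a b} ha hb p hp => by rw [mul_smul, hb p hp, ha p hp]
  inv_mem' := fun {a} ha p hp => inv_smul_eq_iff.2 (ha p hp).symm

theorem mem_axGrp {I : P → L → Prop} {C : L} {g : G} :
    g ∈ axGrp I C ↔ ∀ p, I p C → g • p = p := Iff.rfl

/-- The elations with axis `C`, together with the identity. -/
def El (I : P → L → Prop) (g : G) (C : L) : Prop :=
  (∀ p, I p C → g • p = p) ∧ (g = 1 ∨ ∀ p, ¬ I p C → g • p ≠ p)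

end

namespace Setting

variable {G P L : Type*} [Group G] [MulAction G P] [MulAction G L] {I : P → L → Prop} {k l : ℕ}
  (h : Setting G I k l) [Finite G] [Finite P] [Finite L]
include h

theorem smul_axis {g : G} {C : L} (hg : g ∈ axGrp I C) : g • C = C :=
  h.line_eq (S := {p | I p C}) (fun p hp => ⟨h.mem_of_fix_point (hg p hp) hp, hp⟩)
    (by rw [h.card_pts]; exact h.l_lt)

theorem conj_mem_ax {g : G} {C : L} (hg : g ∈ axGrp I C) (a : G) : a * g * a⁻¹ ∈ axGrp I (a • C) := by
  intro p hp
  rw [mul_smul, mul_smul, hg (a⁻¹ • p) (by rwa [h.mem_inv, inv_inv]), smul_inv_smul]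

theorem el_conj {g : G} {C : L} (hg : El I g C) (a : G) : El I (a * g * a⁻¹) (a • C) := by
  refine ⟨h.conj_mem_ax hg.1 a, hg.2.imp (fun e => by rw [e]; group) fun hfree p hp e => ?_⟩
  rw [mul_smul, mul_smul, ← eq_inv_smul_iff] at e
  exact hfree (a⁻¹ • p) (by rwa [h.mem_inv, inv_inv]) e

/-- An element of the pointwise stabilizer of a block fixes at most one further point. -/
theorem fixed_off {g : G} {B : L} (hg : g ∈ axGrp I B) (hg1 : g ≠ 1) {x y : P} (hx : ¬ I x B)
    (hy : ¬ I y B) (gx : g • x = x) (gy : g • y = y) : x = y := by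
  by_contra hne
  have hthru : ∀ {w : P}, ¬ I w B → g • w = w → ∀ C, I w C → g • C = C := by
    intro w hw gw C hC
    have hCB : C ≠ B := fun e => hw (e ▸ hC)
    refine h.line_eq (S := insert w {p | I p C ∧ I p B}) (fun p hp => ?_) ?_
    · rcases hp with rfl | hp
      · exact ⟨h.mem_of_fix_point gw hC, hC⟩
      · exact ⟨h.mem_of_fix_point (hg p hp.2) hp.1, hp.1⟩
    · rw [Set.ncard_insert_of_notMem (fun e => hw e.2) (Set.toFinite _), h.card_meet C B hCB]
      exact Nat.lt_succ_self l
  have hmv : ∀ {u w z : P}, u ≠ w → ¬ I u B → ¬ I w B → g • u = u → g • w = w → g • z ≠ z → ¬ I z B →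
      ∀ C, I u C → I w C → I z C := by
    intro u w z huw hu hw gu gw gz hz C huC hwC
    have e : ∀ {v : P}, ¬ I v B → g • v = v →
        {C | I v C ∧ I z C} = {C | I z C ∧ I (g • z) C} := by
      intro v hv gv
      refine Set.eq_of_subset_of_ncard_le (fun D hD => ⟨hD.2, h.mem_of_fix_line (hthru hv gv D hD.1) hD.2⟩) ?_
        (Set.toFinite _)
      rw [h.card_pair z _ (Ne.symm gz), h.card_pair v z (fun e => gz (by rw [← e, gv]))]
    have e' := (e hu gu).trans (e hw gw).symm
    have e2 : {C | I u C ∧ I w C} = {C | I u C ∧ I z C} := by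
      refine (Set.eq_of_subset_of_ncard_le (fun D hD => ?_) ?_ (Set.toFinite _)).symm
      · exact ⟨hD.1, ((Set.ext_iff.1 e' D).1 hD).1⟩
      · rw [h.card_pair u w huw, h.card_pair u z (fun e => gz (by rw [← e, gu]))]
    exact ((Set.ext_iff.1 e2 C).1 ⟨huC, hwC⟩).2
  obtain ⟨z, hgz⟩ : ∃ z, g • z ≠ z := by
    by_contra hc
    push Not at hc
    exact hg1 (h.faithful g hc)
  have hz : ¬ I z B := fun e => hgz (hg z e)
  obtain ⟨C, hCx, hCy⟩ : ∃ C, I x C ∧ I y C := by
    apply Set.nonempty_of_ncard_ne_zero (s := {C | I x C ∧ I y C})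
    rw [h.card_pair x y hne]
    have := h.l_pos
    omega
  have hCB : C ≠ B := fun e => hx (e ▸ hCx)
  have hall : ∀ p, ¬ I p B → I p C := by
    intro p hp
    by_cases gp : g • p = p
    · by_cases hpx : p = x
      · exact hpx ▸ hCx
      · have hC' : ∀ D, I x D → I y D → I z D := hmv hne hx hy gx gy hgz hz
        have hC'' : ∀ D, I x D → I p D → I z D := hmv (Ne.symm hpx) hx hp gx gp hgz hz
        have hxz : x ≠ z := fun e => hgz (e ▸ gx)
        have e1 : {D | I x D ∧ I y D} = {D | I x D ∧ I z D} :=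
          Set.eq_of_subset_of_ncard_le (fun D hD => ⟨hD.1, hC' D hD.1 hD.2⟩)
            (by rw [h.card_pair x y hne, h.card_pair x z hxz]) (Set.toFinite _)
        have e2 : {D | I x D ∧ I p D} = {D | I x D ∧ I z D} :=
          Set.eq_of_subset_of_ncard_le (fun D hD => ⟨hD.1, hC'' D hD.1 hD.2⟩)
            (by rw [h.card_pair x p (Ne.symm hpx), h.card_pair x z hxz]) (Set.toFinite _)
        exact ((Set.ext_iff.1 (e1.trans e2.symm) C).1 ⟨hCx, hCy⟩).2
    · exact hmv hne hx hy gx gy gp hp C hCx hCy
  -- then every point off `B` lies in `C`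
  have h1 : {p | I p C} ∪ {p | I p B} = Set.univ :=
    Set.eq_univ_of_forall fun p => (em (I p B)).symm.imp (hall p) id
  have h2 := Set.ncard_union_add_ncard_inter {p | I p C} {p | I p B} (Set.toFinite _) (Set.toFinite _)
  rw [h1, Set.ncard_univ, h.card_pts, h.card_pts,
    show {p | I p C} ∩ {p | I p B} = {p | I p C ∧ I p B} from rfl, h.card_meet C B hCB] at h2
  have h3 := h.param''
  have := h.l_lt
  have := h.k_add_two_le
  rw [show Nat.card P - k = k - l by omega] at h3
  have := Nat.eq_of_mul_eq_mul_right (by omega) h3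
  omega

theorem exists_elGrp (B : L) :
    ∃ T : Subgroup G, (∀ g, g ∈ T ↔ El I g B) ∧ (axGrp (G := G) I B ≠ ⊥ → T ≠ ⊥) := by
  classical
  by_cases hfree : ∀ g ∈ axGrp (G := G) I B, g ≠ 1 → ∀ p, ¬ I p B → g • p ≠ p
  · refine ⟨axGrp I B, fun g => ⟨fun hg => ⟨hg, ?_⟩, fun hg => hg.1⟩, id⟩
    by_cases h1 : g = 1
    · exact Or.inl h1
    · exact Or.inr (hfree g hg h1)
  push Not at hfree
  obtain ⟨g₀, hg₀, hg₀1, x, hx, hg₀x⟩ := hfree
  let N : Subgroup G := axGrp I B
  have hstabcard : ∀ y, ¬ I y B → Nat.card (MulAction.stabilizer N y) = Nat.card (MulAction.stabilizer N x) := by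
    intro y hy
    obtain ⟨a, haB, hay⟩ := h.trans_out B x y hx hy
    have hconj : ∀ {b : G}, b • B = B → ∀ {g : G}, g ∈ N → b * g * b⁻¹ ∈ N := by
      intro b hb g hg
      have := h.conj_mem_ax hg b
      rwa [hb] at this
    have haB' : a⁻¹ • B = B := inv_smul_eq_iff.2 haB.symm
    refine Nat.card_congr
      { toFun := fun g => ⟨⟨a⁻¹ * (g : N) * a, by simpa using hconj haB' (g : N).2⟩, ?_⟩
        invFun := fun g => ⟨⟨a * (g : N) * a⁻¹, hconj haB (g : N).2⟩, ?_⟩
        left_inv := fun g => by ext; simp [mul_assoc]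
        right_inv := fun g => by ext; simp [mul_assoc] }
    · have hgy : ((g : N) : G) • y = y := g.2
      show (a⁻¹ * ((g : N) : G) * a) • x = x
      rw [mul_smul, mul_smul, hay, hgy, ← hay, inv_smul_smul]
    · have hgx : ((g : N) : G) • x = x := g.2
      show (a * ((g : N) : G) * a⁻¹) • y = y
      rw [mul_smul, mul_smul, ← hay, inv_smul_smul, hgx]
  have hdisj : ∀ {y z : P}, ¬ I y B → ¬ I z B → y ≠ z → ∀ g : N, g • y = y → g • z = z → g = 1 := by
    intro y z hy hz hyz g gy gz
    by_contra hg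
    exact hyz (h.fixed_off g.2 (fun e => hg (Subtype.ext e)) hy hz gy gz)
  have horb : ∀ y, ¬ I y B → (MulAction.orbit N y).ncard * Nat.card (MulAction.stabilizer N x) = Nat.card N := by
    intro y hy
    rw [← MulAction.index_stabilizer, ← hstabcard y hy, Subgroup.index_mul_card]
  have hoff : ∀ {y : P}, ¬ I y B → ∀ g : N, ¬ I (g • y) B := fun {y} hy g e =>
    hy ((h.mem_fix_iff (h.smul_axis g.2)).1 e)
  have hone : 1 < Nat.card (MulAction.stabilizer N x) := by
    rw [Finite.one_lt_card_iff_nontrivial]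
    exact ⟨⟨1, ⟨⟨g₀, hg₀⟩, hg₀x⟩, fun e => hg₀1 (congrArg (fun u : MulAction.stabilizer N x => ((u : N) : G)) e).symm⟩⟩
  have hcover : ∀ y, ¬ I y B → y ∈ MulAction.orbit N x := by
    intro y hy
    by_contra hyo
    -- the nontrivial stabilizers are disjoint
    haveI := Fintype.ofFinite P
    let S : Finset P := Finset.univ.filter fun p => ¬ I p B
    have hle : ∑ p ∈ S, (Nat.card (MulAction.stabilizer N p) - 1) ≤ Nat.card N - 1 := by
      haveI := Fintype.ofFinite N
      have hc : ∀ p : P, Nat.card (MulAction.stabilizer N p) - 1 =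
          ((Finset.univ.filter fun g : N => g • p = p).erase 1).card := fun p => by
        rw [Finset.card_erase_of_mem (by simp), ← Set.ncard_coe_finset, Finset.coe_filter_univ,
          ← Nat.card_coe_set_eq]
        rfl
      simp only [hc]
      rw [← Finset.card_biUnion, Nat.card_eq_fintype_card, ← Finset.card_univ,
        ← Finset.card_erase_of_mem (Finset.mem_univ (1 : N))]
      · exact Finset.card_le_card fun g hg => by
          simp only [Finset.mem_biUnion, Finset.mem_erase] at hg
          obtain ⟨p, -, hg1, -⟩ := hg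
          exact Finset.mem_erase.2 ⟨hg1, Finset.mem_univ _⟩
      · intro p hp q hq hpq
        rw [Function.onFun, Finset.disjoint_left]
        intro g hgp hgq
        simp only [Finset.mem_erase, Finset.mem_filter, Finset.mem_univ, true_and] at hgp hgq
        simp only [S, Finset.coe_filter, Finset.mem_univ, true_and, Set.mem_setOf_eq] at hp hq
        exact hgp.1 (hdisj hp hq hpq g hgp.2 hgq.2)
    rw [Finset.sum_congr rfl (fun p hp => by
      rw [hstabcard p (by simpa [S] using hp)]), Finset.sum_const, smul_eq_mul] at hle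
    have hS : (MulAction.orbit N x).ncard + (MulAction.orbit N y).ncard ≤ S.card := by
      rw [← Set.ncard_union_eq (Set.disjoint_left.2 fun p hp hp' => hyo (by
        rw [← MulAction.orbit_eq_iff.2 hp, MulAction.orbit_eq_iff.2 hp']; exact MulAction.mem_orbit_self y))
        (Set.toFinite _) (Set.toFinite _), ← Set.ncard_coe_finset]
      refine Set.ncard_le_ncard ?_ (Set.toFinite _)
      rintro p (⟨g, rfl⟩ | ⟨g, rfl⟩) <;> simp [S, hoff hx g, hoff hy g]
    have e1 := horb x hx
    have e2 := horb y hy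
    have e3 : (MulAction.orbit N y).ncard = (MulAction.orbit N x).ncard :=
      Nat.eq_of_mul_eq_mul_right (by omega) (e2.trans e1.symm)
    obtain ⟨a, ha⟩ : ∃ a, Nat.card (MulAction.stabilizer N x) = a + 2 :=
      ⟨Nat.card (MulAction.stabilizer N x) - 2, by omega⟩
    rw [ha] at e1 hle
    rw [e3] at hS
    have hN : 0 < Nat.card N := Nat.card_pos
    rw [show a + 2 - 1 = a + 1 by omega] at hle
    have h5 : ((MulAction.orbit N x).ncard + (MulAction.orbit N x).ncard) * (a + 1) ≤ Nat.card N - 1 :=
      le_trans (Nat.mul_le_mul_right _ hS) hle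
    have h6 : (MulAction.orbit N x).ncard * (a + 2) ≤ ((MulAction.orbit N x).ncard + (MulAction.orbit N x).ncard) * (a + 1) := by
      nlinarith
    omega
  obtain ⟨K, -, hK, hcompl⟩ := CharInd.frobenius_kernel (MulAction.stabilizer N x) fun g hg z hz hgz => by
    rw [MulAction.mem_stabilizer_iff] at hg hz hgz
    rw [mul_smul, mul_smul, ← eq_inv_smul_iff] at hgz
    exact hdisj hx (hoff hx g⁻¹) (fun e => hg (eq_inv_smul_iff.1 e)) z hz hgz
  have hKiff : ∀ g : N, g ∈ K ↔ El I (g : G) B := by
    intro g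
    rw [hK]
    constructor
    · intro hall
      refine ⟨g.2, or_iff_not_imp_left.2 fun hg1 p hp e => ?_⟩
      obtain ⟨b, rfl⟩ := hcover p hp
      have hmem : b⁻¹ * g * b ∈ MulAction.stabilizer N x := by
        rw [MulAction.mem_stabilizer_iff, mul_smul, mul_smul, show g • b • x = b • x from e, inv_smul_smul]
      have := hall b hmem
      apply hg1
      have h2 : g = 1 := by simpa [mul_assoc, inv_mul_eq_one] using this
      rw [h2]; rfl
    · rintro ⟨-, hel⟩ b hb
      rcases hel with h1 | h1
      · rw [show g = 1 from Subtype.ext h1]; group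
      · rw [MulAction.mem_stabilizer_iff, mul_smul, mul_smul, inv_smul_eq_iff] at hb
        exact absurd hb (h1 _ (hoff hx b))
  refine ⟨K.map N.subtype, fun g => ?_, fun _ hbot => ?_⟩
  · rw [Subgroup.mem_map]
    constructor
    · rintro ⟨u, hu, rfl⟩; exact (hKiff u).1 hu
    · intro hg; exact ⟨⟨g, hg.1⟩, (hKiff _).2 hg, rfl⟩
  · rw [Subgroup.map_eq_bot_iff_of_injective _ N.subtype_injective] at hbot
    have hm := hcompl.card_mul
    rw [hbot, Subgroup.card_bot, one_mul, ← horb x hx] at hm
    have h1 : (MulAction.orbit N x).ncard = 1 := by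
      refine Nat.eq_of_mul_eq_mul_right (by omega : 0 < Nat.card (MulAction.stabilizer N x)) ?_
      rw [one_mul]
      exact hm.symm
    have h2 : {p : P | ¬ I p B} ⊆ MulAction.orbit N x := fun p hp => hcover p hp
    have h3 := Set.ncard_le_ncard h2 (Set.toFinite _)
    have h4 := Set.ncard_add_ncard_compl {p | I p B} (Set.toFinite _) (Set.toFinite _)
    rw [h.card_pts, show {p | I p B}ᶜ = {p | ¬ I p B} from rfl] at h4
    have := h.k_add_two_le
    omega

/-- The group of elations with axis `B`. -/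
noncomputable def elGrp (B : L) : Subgroup G := (h.exists_elGrp B).choose

theorem mem_elGrp {B : L} {g : G} : g ∈ h.elGrp B ↔ El I g B := (h.exists_elGrp B).choose_spec.1 g

theorem elGrp_ne_bot {B : L} (hB : axGrp (G := G) I B ≠ ⊥) : h.elGrp B ≠ ⊥ :=
  (h.exists_elGrp B).choose_spec.2 hB

end Setting

end Cfsg.Agent.ItoDesign
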