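import Cfsg.Agent.ItoDesign.Recog

/-!
The theorem of Ito on doubly transitive groups with a subgroup of index the degree that is unfaithful on one
of its orbits.
-/

set_option autoImplicit false
set_option linter.all false

namespace Cfsg.Agent.ItoDesign

/-- A function on blocks with zero sums over the blocks through each point vanishes. -/
theorem sum_inj {P L : Type*} [Fintype P] [Fintype L] (I : P → L → Prop) [∀ p C, Decidable (I p C)] (k l : ℕ)
    (hk : k ≠ 0) (hkl : k ≠ l) (hpts : ∀ C, {p | I p C}.ncard = k)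
    (hmeet : ∀ C D, C ≠ D → {p | I p C ∧ I p D}.ncard = l) (f : L → ℚ)
    (hf : ∀ p, ∑ C, (if I p C then f C else 0) = 0) : f = 0 := by
  classical
  have hsum : ∑ C, f C = 0 := by
    have h1 : ∑ p : P, ∑ C, (if I p C then f C else 0) = 0 := Finset.sum_eq_zero fun p _ => hf p
    rw [Finset.sum_comm] at h1
    simp only [← Finset.sum_filter, Finset.sum_const, nsmul_eq_mul] at h1
    have h2 : ∀ C, ((Finset.univ.filter fun p => I p C).card : ℚ) = k := fun C => by
      rw [← Set.ncard_coe_finset, Finset.coe_filter_univ, hpts]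
    simp only [h2, ← Finset.mul_sum] at h1
    exact (mul_eq_zero.1 h1).resolve_left (by exact_mod_cast hk)
  funext D
  have h2 : ∀ C, (∑ p : P, if I p D then (if I p C then f C else 0) else 0)
      = (l : ℚ) * f C + (if C = D then ((k : ℚ) - l) * f C else 0) := by
    intro C
    have e : (∑ p : P, if I p D then (if I p C then f C else 0) else 0)
        = ((Finset.univ.filter fun p => I p D ∧ I p C).card : ℚ) * f C := by
      rw [← nsmul_eq_mul, ← Finset.sum_const, Finset.sum_filter]
      refine Finset.sum_congr rfl fun p _ => ?_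
      by_cases hD : I p D <;> by_cases hC : I p C <;> simp [hD, hC]
    rw [e, ← Set.ncard_coe_finset, Finset.coe_filter_univ]
    by_cases hCD : C = D
    · subst hCD
      simp only [and_self, hpts, if_true]
      ring
    · rw [hmeet D C (Ne.symm hCD), if_neg hCD, add_zero]
  have h3 : ∑ C, ∑ p : P, (if I p D then (if I p C then f C else 0) else 0) = 0 := by
    rw [Finset.sum_comm]
    exact Finset.sum_eq_zero fun p _ => by by_cases hD : I p D <;> simp [hD, hf p]
  simp only [h2, Finset.sum_add_distrib, ← Finset.mul_sum, hsum, mul_zero, zero_add, Finset.sum_ite_eq',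
    Finset.mem_univ, if_true] at h3
  exact (mul_eq_zero.1 h3).resolve_left (sub_ne_zero.2 (by exact_mod_cast hkl))

set_option maxHeartbeats 1000000 in
/-- The design of an orbit of a subgroup of index the degree. -/
theorem exists_unf {G Ω : Type*} [Group G] [Finite G] [MulAction G Ω] [FaithfulSMul G Ω] [Finite Ω]
    (h2 : MulAction.IsMultiplyPretransitive G Ω 2) (H : Subgroup G) (hidx : H.index = Nat.card Ω)
    (hnt : ¬ MulAction.IsPretransitive H Ω) (hfix : ∀ a : Ω, ∃ h : H, h • a ≠ a) (a : Ω)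
    (hunf : ∃ h : H, h ≠ 1 ∧ ∀ b ∈ MulAction.orbit H a, h • b = b) :
    ∃ (I : Ω → G ⧸ H → Prop) (k l : ℕ), Unf G I k l := by
  classical
  haveI := Fintype.ofFinite G
  haveI := Fintype.ofFinite Ω
  haveI := Fintype.ofFinite (G ⧸ H)
  have h2' : ∀ {p q r s : Ω}, p ≠ q → r ≠ s → ∃ g : G, g • p = r ∧ g • q = s :=
    fun h1 h3 => MulAction.is_two_pretransitive_iff.1 h2 h1 h3
  let B : Set Ω := MulAction.orbit H a
  have hB : ∀ u : G, u ∈ H → ∀ x, u • x ∈ B ↔ x ∈ B := by
    intro u hu x
    constructor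
    · intro hx
      have := MulAction.mem_orbit_of_mem_orbit (⟨u, hu⟩ : H)⁻¹ hx
      rwa [show (⟨u, hu⟩ : H)⁻¹ • u • x = x from inv_smul_smul u x] at this
    · exact fun hx => MulAction.mem_orbit_of_mem_orbit (⟨u, hu⟩ : H) hx
  let I : Ω → G ⧸ H → Prop := fun x C => ∃ g : G, (g : G ⧸ H) = C ∧ g⁻¹ • x ∈ B
  have hI : ∀ x (g : G), I x (g : G ⧸ H) ↔ g⁻¹ • x ∈ B := by
    intro x g
    refine ⟨?_, fun hx => ⟨g, rfl, hx⟩⟩
    rintro ⟨g', hg', hx⟩
    have hu : g⁻¹ * g' ∈ H := QuotientGroup.eq.1 hg'.symm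
    have := (hB _ hu (g'⁻¹ • x)).2 hx
    rwa [← mul_smul, mul_assoc, mul_inv_cancel, mul_one] at this
  have hcompat : ∀ (g : G) x C, I (g • x) (g • C) ↔ I x C := by
    intro g x C
    induction C using QuotientGroup.induction_on with
    | H u =>
      show I (g • x) ((g * u : G) : G ⧸ H) ↔ _
      rw [hI, hI, mul_inv_rev, mul_smul, inv_smul_smul]
  have hlnsinv : ∀ (g : G) (S : Ω → G ⧸ H → Prop), (∀ x C, S (g • x) (g • C) ↔ S x C) → ∀ x,
      {C | S (g • x) C}.ncard = {C | S x C}.ncard := by
    intro g S hS x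
    rw [← Set.ncard_image_of_injective {C | S x C} (MulAction.injective g)]
    congr 1
    ext C
    refine ⟨fun hC => ⟨g⁻¹ • C, ?_, smul_inv_smul g C⟩, ?_⟩
    · show S x (g⁻¹ • C)
      rw [← hS, smul_inv_smul]; exact hC
    · rintro ⟨D, hD, rfl⟩; exact (hS x D).2 hD
  let k := B.ncard
  have hpts : ∀ C : G ⧸ H, {x | I x C}.ncard = k := by
    intro C
    induction C using QuotientGroup.induction_on with
    | H u =>
      rw [show {x | I x (u : G ⧸ H)} = (u • ·) '' B by
        ext x
        simp only [Set.mem_setOf_eq, hI]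
        exact ⟨fun hx => ⟨_, hx, smul_inv_smul u x⟩, fun ⟨y, hy, e⟩ => by rw [← e, inv_smul_smul]; exact hy⟩,
        Set.ncard_image_of_injective _ (MulAction.injective u)]
  have haB : a ∈ B := MulAction.mem_orbit_self a
  have hk2 : 2 ≤ k := by
    obtain ⟨u, hu⟩ := hfix a
    exact (Set.one_lt_ncard (Set.toFinite _)).2 ⟨u • a, ⟨u, rfl⟩, a, haB, hu⟩
  obtain ⟨x₁, hx₁⟩ : ∃ x, x ∉ B := by
    by_contra hc
    push Not at hc
    refine hnt ⟨fun x y => ?_⟩
    obtain ⟨u, hu⟩ := hc x
    obtain ⟨v, hv⟩ := hc y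
    refine ⟨v * u⁻¹, ?_⟩
    rw [mul_smul, ← hu, inv_smul_smul]; exact hv
  have hkn : k + 2 ≤ Nat.card Ω := by
    have h1 := Set.ncard_add_ncard_compl B (Set.toFinite _) (Set.toFinite _)
    have h2 : 2 ≤ Bᶜ.ncard := by
      obtain ⟨u, hu⟩ := hfix x₁
      exact (Set.one_lt_ncard (Set.toFinite _)).2 ⟨u • x₁, fun e => hx₁ ((hB _ u.2 x₁).1 e), x₁, hx₁, hu⟩
    omega
  have hnL : Nat.card (G ⧸ H) = Nat.card Ω := hidx
  have htr : ∀ x y : Ω, ∃ g : G, g • x = y := fun x y => by
    haveI := Finite.one_lt_card_iff_nontrivial.1 (show 1 < Nat.card Ω by omega)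
    obtain ⟨x', hx'⟩ := exists_ne x
    obtain ⟨y', hy'⟩ := exists_ne y
    obtain ⟨g, hg, -⟩ := h2' (Ne.symm hx') (Ne.symm hy')
    exact ⟨g, hg⟩
  have hlns : ∀ x, {C | I x C}.ncard = k := by
    intro x
    have hc : ∀ y, {C | I y C}.ncard = {C | I x C}.ncard := fun y => by
      obtain ⟨g, rfl⟩ := htr x y
      exact hlnsinv g I (hcompat g) x
    have h1 := Finset.sum_card_bipartiteAbove_eq_sum_card_bipartiteBelow
      (r := fun x C => I x C) (s := (Finset.univ : Finset Ω)) (t := (Finset.univ : Finset (G ⧸ H)))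
    simp only [Finset.bipartiteAbove, Finset.bipartiteBelow] at h1
    have e1 : ∀ y : Ω, (Finset.univ.filter fun C => I y C).card = {C | I x C}.ncard := fun y => by
      rw [← Set.ncard_coe_finset, Finset.coe_filter_univ, hc]
    have e2 : ∀ C : G ⧸ H, (Finset.univ.filter fun y => I y C).card = k := fun C => by
      rw [← Set.ncard_coe_finset, Finset.coe_filter_univ, hpts]
    simp only [e1, e2, Finset.sum_const, smul_eq_mul, Finset.card_univ, ← Nat.card_eq_fintype_card, hnL] at h1
    exact Nat.eq_of_mul_eq_mul_left (by omega) h1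
  obtain ⟨b, hbne⟩ : ∃ b, a ≠ b := ⟨x₁, fun e => hx₁ (e ▸ haB)⟩
  let l := {C | I a C ∧ I b C}.ncard
  have hpair : ∀ p q, p ≠ q → {C | I p C ∧ I q C}.ncard = l := by
    intro p q hpq
    obtain ⟨g, rfl, rfl⟩ := h2' hbne hpq
    show _ = {C | I a C ∧ I b C}.ncard
    rw [← Set.ncard_image_of_injective {C | I a C ∧ I b C} (MulAction.injective g)]
    congr 1
    ext C
    refine ⟨fun hC => ⟨g⁻¹ • C, ?_, smul_inv_smul g C⟩, ?_⟩
    · exact ⟨by rw [← hcompat g, smul_inv_smul]; exact hC.1, by rw [← hcompat g, smul_inv_smul]; exact hC.2⟩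
    · rintro ⟨D, hD, rfl⟩; exact ⟨(hcompat g _ D).2 hD.1, (hcompat g _ D).2 hD.2⟩
  have hparam : k * (k - 1) = l * (Nat.card Ω - 1) := by
    have h1 := Finset.sum_card_bipartiteAbove_eq_sum_card_bipartiteBelow
      (r := fun x C => I x C) (s := Finset.univ.filter fun q => q ≠ a) (t := Finset.univ.filter fun C => I a C)
    simp only [Finset.bipartiteAbove, Finset.bipartiteBelow, Finset.filter_filter] at h1
    have e1 : ∀ q ∈ Finset.univ.filter (fun q => q ≠ a),
        (Finset.univ.filter fun C => I a C ∧ I q C).card = l := fun q hq => by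
      rw [← Set.ncard_coe_finset, Finset.coe_filter_univ, hpair a q (Ne.symm (Finset.mem_filter.1 hq).2)]
    have e2 : ∀ C ∈ Finset.univ.filter (fun C => I a C),
        (Finset.univ.filter fun q => q ≠ a ∧ I q C).card = k - 1 := fun C hC => by
      rw [← Set.ncard_coe_finset, Finset.coe_filter_univ,
        show {q | q ≠ a ∧ I q C} = {q | I q C} \ {a} by ext q; exact and_comm,
        Set.ncard_diff_singleton_of_mem (show a ∈ {q | I q C} from (Finset.mem_filter.1 hC).2), hpts]
    rw [Finset.sum_congr rfl e1, Finset.sum_congr rfl e2,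
      Finset.sum_const, Finset.sum_const, smul_eq_mul, smul_eq_mul, Finset.filter_ne', Finset.card_erase_of_mem
      (Finset.mem_univ a), Finset.card_univ, ← Nat.card_eq_fintype_card, ← Set.ncard_coe_finset,
      Finset.coe_filter_univ, hlns] at h1
    rw [← h1, mul_comm]
  have hlk : l < k := by
    by_contra hc
    push Not at hc
    have : k * (Nat.card Ω - 1) ≤ k * (k - 1) := by rw [hparam]; exact Nat.mul_le_mul_right _ hc
    have := Nat.le_of_mul_le_mul_left this (by omega)
    omega
  have hl1 : 1 ≤ l := by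
    by_contra hc
    rw [show l = 0 by omega, zero_mul] at hparam
    exact absurd hparam (Nat.mul_ne_zero (by omega) (by omega))
  have hmeet : ∀ C D, C ≠ D → {x | I x C ∧ I x D}.ncard = l := by
    intro C D hCD
    let cnt : G ⧸ H → ℕ := fun E => (Finset.univ.filter fun x => I x C ∧ I x E).card
    let pt : Finset Ω := Finset.univ.filter fun x => I x C
    have hptc : pt.card = k := by rw [← Set.ncard_coe_finset, Finset.coe_filter_univ, hpts]
    have hcnt : ∀ E, cnt E = (pt.filter fun x => I x E).card := fun E => by rw [Finset.filter_filter]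
    let E1 : Finset (G ⧸ H) := Finset.univ.erase C
    have hthru : ∀ x ∈ pt, (E1.filter fun E => I x E).card = k - 1 := by
      intro x hx
      rw [Finset.filter_erase, Finset.card_erase_of_mem (Finset.mem_filter.2 ⟨Finset.mem_univ _, (Finset.mem_filter.1 hx).2⟩),
        ← Set.ncard_coe_finset, Finset.coe_filter_univ, hlns]
    have s1 : ∑ E ∈ E1, (cnt E : ℚ) = (k : ℚ) * ((k : ℚ) - 1) := by
      have h1 := Finset.sum_card_bipartiteAbove_eq_sum_card_bipartiteBelow (r := fun x E => I x E) (s := pt) (t := E1)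
      simp only [Finset.bipartiteAbove, Finset.bipartiteBelow] at h1
      rw [← Nat.cast_sum, Finset.sum_congr rfl (fun E _ => hcnt E), ← h1, Finset.sum_congr rfl hthru,
        Finset.sum_const, hptc, smul_eq_mul, Nat.cast_mul, Nat.cast_sub (by omega)]
      simp
    have s2 : ∑ E ∈ E1, (cnt E : ℚ) ^ 2 = (k : ℚ) * ((k : ℚ) - 1) * l := by
      have h1 := Finset.sum_card_bipartiteAbove_eq_sum_card_bipartiteBelow
        (r := fun (z : Ω × Ω) E => I z.1 E ∧ I z.2 E) (s := pt ×ˢ pt) (t := E1)
      simp only [Finset.bipartiteAbove, Finset.bipartiteBelow] at h1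
      have e : ∀ E, ((pt ×ˢ pt).filter fun z : Ω × Ω => I z.1 E ∧ I z.2 E).card = cnt E ^ 2 := fun E => by
        rw [Finset.filter_product (fun x => I x E) (fun x => I x E), Finset.card_product, hcnt, pow_two]
      rw [Finset.sum_congr rfl (fun E _ => e E)] at h1
      have e2 : ∀ z ∈ pt ×ˢ pt, ((E1.filter fun E => I z.1 E ∧ I z.2 E).card : ℚ) =
          ((l : ℚ) - 1) + (if z.1 = z.2 then (k : ℚ) - l else 0) := by
        intro z hz
        simp only [pt, Finset.mem_product, Finset.mem_filter, Finset.mem_univ, true_and] at hz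
        rw [Finset.filter_erase, Finset.card_erase_of_mem (Finset.mem_filter.2 ⟨Finset.mem_univ C, hz⟩),
          ← Set.ncard_coe_finset, Finset.coe_filter_univ]
        split_ifs with he
        · rw [he]
          simp only [and_self, hlns]
          rw [Nat.cast_sub (by omega)]; push_cast; ring
        · rw [hpair _ _ he, Nat.cast_sub (by omega)]; push_cast; ring
      have h3 : ((∑ E ∈ E1, cnt E ^ 2 : ℕ) : ℚ) = (k : ℚ) * k * ((l : ℚ) - 1) + k * ((k : ℚ) - l) := by
        rw [← h1, Nat.cast_sum, Finset.sum_congr rfl e2, Finset.sum_add_distrib, Finset.sum_const,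
          Finset.card_product, hptc, nsmul_eq_mul, ← Finset.sum_filter, Finset.sum_const, nsmul_eq_mul,
          show ((pt ×ˢ pt).filter fun z : Ω × Ω => z.1 = z.2) = pt.diag by ext ⟨y, z⟩; simp [Finset.mem_diag]; rintro rfl; simp, Finset.diag_card, hptc]
        push_cast; ring
      push_cast at h3
      rw [h3]; ring
    have hE1 : (E1.card : ℚ) = (Nat.card Ω : ℚ) - 1 := by
      rw [Finset.card_erase_of_mem (Finset.mem_univ C), Finset.card_univ, ← Nat.card_eq_fintype_card, hnL,
        Nat.cast_sub (by omega)]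
      simp
    have hp : (k : ℚ) * ((k : ℚ) - 1) = l * ((Nat.card Ω : ℚ) - 1) := by
      have := congrArg (fun t : ℕ => (t : ℚ)) hparam
      push_cast [Nat.cast_sub (show 1 ≤ k by omega), Nat.cast_sub (show 1 ≤ Nat.card Ω by omega)] at this
      exact this
    have hvar : ∑ E ∈ E1, ((cnt E : ℚ) - l) ^ 2 = 0 := by
      simp only [sub_sq, Finset.sum_add_distrib, Finset.sum_sub_distrib, Finset.sum_const, nsmul_eq_mul,
        ← Finset.sum_mul, ← Finset.mul_sum, s1, s2, hE1]
      linear_combination -(l : ℚ) * hp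
    have := (Finset.sum_eq_zero_iff_of_nonneg fun E _ => sq_nonneg _).1 hvar D
      (Finset.mem_erase.2 ⟨Ne.symm hCD, Finset.mem_univ _⟩)
    rw [sq_eq_zero_iff, sub_eq_zero, Nat.cast_inj] at this
    exact ((Set.ncard_coe_finset _).symm.trans (congrArg Set.ncard (Finset.coe_filter_univ _))).symm.trans this
  have hfaith : ∀ g : G, (∀ x : Ω, g • x = x) → g = 1 := fun g hg =>
    FaithfulSMul.eq_of_smul_eq_smul fun x : Ω => by rw [hg, one_smul]
  -- the stabilizer is transitive off the orbit
  have htrans_out : ∀ x y, x ∉ B → y ∉ B → ∃ u ∈ H, u • x = y := by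
    intro x y hx hy
    let O : Set Ω := MulAction.orbit H x
    have hO : ∀ u : G, u ∈ H → ∀ z, u • z ∈ O ↔ z ∈ O := by
      intro u hu z
      constructor
      · intro hz
        have := MulAction.mem_orbit_of_mem_orbit (⟨u, hu⟩ : H)⁻¹ hz
        rwa [show (⟨u, hu⟩ : H)⁻¹ • u • z = z from inv_smul_smul u z] at this
      · exact fun hz => MulAction.mem_orbit_of_mem_orbit (⟨u, hu⟩ : H) hz
    let J : Ω → G ⧸ H → Prop := fun z C => ∃ g : G, (g : G ⧸ H) = C ∧ g⁻¹ • z ∈ O
    have hJ : ∀ z (g : G), J z (g : G ⧸ H) ↔ g⁻¹ • z ∈ O := by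
      intro z g
      refine ⟨?_, fun hz => ⟨g, rfl, hz⟩⟩
      rintro ⟨g', hg', hz⟩
      have hu : g⁻¹ * g' ∈ H := QuotientGroup.eq.1 hg'.symm
      have := (hO _ hu (g'⁻¹ • z)).2 hz
      rwa [← mul_smul, mul_assoc, mul_inv_cancel, mul_one] at this
    have hJcompat : ∀ (g : G) z C, J (g • z) (g • C) ↔ J z C := by
      intro g z C
      induction C using QuotientGroup.induction_on with
      | H u =>
        show J (g • z) ((g * u : G) : G ⧸ H) ↔ _
        rw [hJ, hJ, mul_inv_rev, mul_smul, inv_smul_smul]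
    have hdis : ∀ z C, J z C → ¬ I z C := by
      intro z C
      induction C using QuotientGroup.induction_on with
      | H u =>
        rw [hJ, hI]
        rintro ⟨v, hv⟩ hzB
        rw [← hv] at hzB
        exact hx ((hB _ v.2 x).1 hzB)
    obtain ⟨p0, q0, hpq0⟩ : ∃ p q : Ω, p ≠ q := ⟨a, b, hbne⟩
    let c : ℕ := {C | J p0 C ∧ I q0 C}.ncard
    have hc : ∀ p q, p ≠ q → {C | J p C ∧ I q C}.ncard = c := by
      intro p q hpq
      obtain ⟨g, rfl, rfl⟩ := h2' hpq0 hpq
      show _ = {C | J p0 C ∧ I q0 C}.ncard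
      rw [← Set.ncard_image_of_injective {C | J p0 C ∧ I q0 C} (MulAction.injective g)]
      congr 1
      ext C
      refine ⟨fun hC => ⟨g⁻¹ • C, ?_, smul_inv_smul g C⟩, ?_⟩
      · exact ⟨by rw [← hJcompat g, smul_inv_smul]; exact hC.1, by rw [← hcompat g, smul_inv_smul]; exact hC.2⟩
      · rintro ⟨D, hD, rfl⟩; exact ⟨(hJcompat g _ D).2 hD.1, (hcompat g _ D).2 hD.2⟩
    have key : ∀ z, z ∉ B → ((k : ℚ) - l) * (if z ∈ O then 1 else 0) = c := by
      intro z hz
      have hzero := sum_inj I k l (by omega) (by omega) hpts hmeet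
        (fun C => ((k : ℚ) - l) * (if J z C then 1 else 0) + (c : ℚ) * ((if I z C then 1 else 0) - 1)) fun p => by
          have e1 : ∀ C, (if I p C then ((k : ℚ) - l) * (if J z C then 1 else 0) +
              (c : ℚ) * ((if I z C then 1 else 0) - 1) else 0) =
              ((k : ℚ) - l) * (if J z C ∧ I p C then 1 else 0) + (c : ℚ) * (if I z C ∧ I p C then 1 else 0)
                - (c : ℚ) * (if I p C then 1 else 0) := fun C => by
            by_cases hp : I p C <;> by_cases hzI : I z C <;> by_cases hJz : J z C <;> simp [hp, hzI, hJz] <;> ring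
          rw [Finset.sum_congr rfl fun C _ => e1 C, Finset.sum_sub_distrib, Finset.sum_add_distrib, ← Finset.mul_sum,
            ← Finset.mul_sum, ← Finset.mul_sum, Finset.sum_boole, Finset.sum_boole, Finset.sum_boole,
            ← Set.ncard_coe_finset, ← Set.ncard_coe_finset, ← Set.ncard_coe_finset, Finset.coe_filter_univ,
            Finset.coe_filter_univ, Finset.coe_filter_univ, hlns]
          by_cases hzp : z = p
          · subst hzp
            rw [show {C | J z C ∧ I z C} = ∅ from Set.eq_empty_of_forall_notMem fun C hC => hdis z C hC.1 hC.2,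
              Set.ncard_empty, show {C | I z C ∧ I z C} = {C | I z C} by simp, hlns]
            push_cast; ring
          · rw [hc z p hzp, hpair z p hzp]; ring
      have h1 := congrFun hzero ((1 : G) : G ⧸ H)
      simp only [hJ, hI, inv_one, one_smul, if_neg hz, Pi.zero_apply] at h1
      linarith
    by_contra hne
    push Not at hne
    have h1 := key x hx
    have h2 := key y hy
    rw [if_pos (show x ∈ O from MulAction.mem_orbit_self x)] at h1
    rw [if_neg (fun ⟨u, hu⟩ => hne u u.2 hu)] at h2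
    have : (k : ℚ) = l := by linarith
    exact absurd (Nat.cast_injective this) (by omega)
  refine ⟨I, k, l,
    { compat := hcompat
      faithful := hfaith
      card_lns := hlns
      card_pts := hpts
      card_pair := hpair
      card_meet := hmeet
      cardL := hnL
      two_trans := fun p q r s h1 h2 => h2' h1 h2
      trans_lns := fun C D => MulAction.exists_smul_eq G C D
      trans_in := ?_
      trans_out := ?_
      l_pos := hl1
      l_lt := hlk
      k_add_two_le := hkn
      param := hparam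
      axial := ?_ }⟩
  · intro C p q hp hq
    induction C using QuotientGroup.induction_on with
    | H u =>
      rw [hI] at hp hq
      obtain ⟨v, hv⟩ := hp
      obtain ⟨w, hw⟩ := hq
      have hv' : (v : G) • a = u⁻¹ • p := hv
      have hw' : (w : G) • a = u⁻¹ • q := hw
      refine ⟨u * ((w : G) * (v : G)⁻¹) * u⁻¹, ?_, ?_⟩
      · show ((u * ((w : G) * (v : G)⁻¹) * u⁻¹ * u : G) : G ⧸ H) = (u : G ⧸ H)
        rw [inv_mul_cancel_right]
        refine QuotientGroup.eq.2 ?_
        rw [mul_inv_rev, inv_mul_cancel_right]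
        exact H.inv_mem (H.mul_mem w.2 (H.inv_mem v.2))
      · rw [mul_smul, mul_smul, mul_smul, ← hv', inv_smul_smul, hw', smul_inv_smul]
  · intro C p q hp hq
    induction C using QuotientGroup.induction_on with
    | H u =>
      rw [hI] at hp hq
      obtain ⟨v, hv, hvp⟩ := htrans_out _ _ hp hq
      refine ⟨u * v * u⁻¹, ?_, ?_⟩
      · show ((u * v * u⁻¹ * u : G) : G ⧸ H) = (u : G ⧸ H)
        rw [inv_mul_cancel_right]
        refine QuotientGroup.eq.2 ?_
        rw [mul_inv_rev, inv_mul_cancel_right]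
        exact H.inv_mem hv
      · rw [mul_smul, mul_smul, hvp, smul_inv_smul]
  · intro C
    induction C using QuotientGroup.induction_on with
    | H u =>
      obtain ⟨v, hv1, hv⟩ := hunf
      intro hbot
      refine hv1 (Subtype.ext ?_)
      have hmem : u * (v : G) * u⁻¹ ∈ axGrp (G := G) I (u : G ⧸ H) := by
        intro p hp
        rw [hI] at hp
        rw [mul_smul, mul_smul, show (v : G) • u⁻¹ • p = u⁻¹ • p from hv _ hp, smul_inv_smul]
      rw [hbot, Subgroup.mem_bot] at hmem
      exact conj_eq_one_iff.1 hmem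

theorem ito {G Ω : Type*} [Group G] [Finite G] [MulAction G Ω] [FaithfulSMul G Ω] [Finite Ω]
    (h2 : MulAction.IsMultiplyPretransitive G Ω 2) (H : Subgroup G) (hidx : H.index = Nat.card Ω)
    (hnt : ¬ MulAction.IsPretransitive H Ω) (hfix : ∀ a : Ω, ∃ h : H, h • a ≠ a)
    (hunf : ∃ a : Ω, ∃ h : H, h ≠ 1 ∧ ∀ b ∈ MulAction.orbit H a, h • b = b) :
    ∃ (m : ℕ) (F : Type) (_ : Field F) (_ : Fintype F), 2 ≤ m ∧
      Nat.card Ω = (Fintype.card F ^ (m + 1) - 1) / (Fintype.card F - 1) ∧
      ∃ N : Subgroup G, N.Normal ∧ Nonempty (N ≃* Matrix.ProjectiveSpecialLinearGroup (Fin (m + 1)) F) ∧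
        Subgroup.centralizer (N : Set G) = ⊥ := by
  obtain ⟨a, ha⟩ := hunf
  obtain ⟨I, k, l, hU⟩ := exists_unf h2 H hidx hnt hfix a ha
  exact hU.exists_psl

end Cfsg.Agent.ItoDesign
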