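import Cfsg.Agent.ItoDesign.Coord
import Cfsg.Agent.Linear.Transvection

/-!
The elations generate a normal projective special linear group.
-/

set_option autoImplicit false
set_option linter.all false

namespace Cfsg.Agent.ItoDesign

namespace Unf

variable {G P L : Type*} [Group G] [MulAction G P] [MulAction G L] {I : P → L → Prop} {k l : ℕ}
  (h : Unf G I k l) [Finite G] [Finite P] [Finite L]
include h

/-- An elation is determined by one moved point. -/
theorem elation_unique {C : L} {g : G} (hg : g ∈ h.elGrp C) (s : P → P) {a : P} (ha : I a C)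
    (hfix : ∀ p, I p C → s p = p) (hln : ∀ u v w, Ln I u v w → Ln I (s u) (s v) (s w))
    (hcen : ∀ p, Ln I p a (s p)) {x : P} (hx : ¬ I x C) (hmv : g • x ≠ x) (hgs : g • x = s x) (p : P) :
    g • p = s p := by
  obtain ⟨a', ha', hga⟩ := h.exists_dir hg
  have haa : a = a' := by
    have h1 : Ln I x a (g • x) := hgs ▸ hcen x
    exact h.eq_of_ln_block hx ha ha' ((h.ln_eq (ne_of_off hx ha) (Ne.symm hmv) ln_left h1).1
      (h.ln_perm (ne_of_off hx ha') (Ne.symm hmv) (h.dir_ln hga x)))
  subst haa
  have hg1 : g ≠ 1 := fun e => hmv (by rw [e, one_smul])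
  have step : ∀ y, ¬ I y C → g • y = s y → ∀ z, ¬ I z C → ¬ Ln I y a z → g • z = s z := by
    intro y hy hys z hz hzL
    have hyz : y ≠ z := fun e => hzL (e ▸ ln_left)
    obtain ⟨b, hb, hbz⟩ := h.meets C hyz
    have hzb : Ln I y b z := h.ln_perm hyz (ne_of_off hy hb) hbz
    have l1 : Ln I (g • y) b (g • z) := by
      have := h.ln_smul (g := g) hzb; rwa [h.el_fix hg hb] at this
    have l2 : Ln I (g • y) b (s z) := by
      have := hln _ _ _ hzb; rwa [hfix b hb, ← hys] at this
    by_contra hne
    have hgy := h.el_off hg hy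
    have e1 : Ln I (g • y) b a := (h.ln_eq (ne_of_off hgy hb) hne l1 l2).1
      ((h.ln_eq (ne_of_off hz ha) hne (h.dir_ln hga z) (hcen z)).2 ln_right)
    have hba : b = a := h.eq_of_ln_block hgy hb ha e1
    exact hzL (hba ▸ hzb)
  by_cases hpC : I p C
  · rw [h.el_fix hg hpC, hfix p hpC]
  by_cases hpL : Ln I x a p
  · obtain ⟨y, hy, hyL⟩ : ∃ y, ¬ I y C ∧ ¬ Ln I x a y := by
      by_contra hc
      push Not at hc
      have h1 := Set.ncard_le_ncard (s := {y | ¬ I y C}) (t := {z | Ln I x a z} \ {a})
        (fun y hy => ⟨hc y hy, ne_of_off hy ha⟩) (Set.toFinite _)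
      rw [h.card_off, Set.ncard_diff_singleton_of_mem (show a ∈ {z | Ln I x a z} from ln_right),
        h.card_line (ne_of_off hx ha)] at h1
      have h2 : 2 ≤ k - l := by
        obtain ⟨l', hl'⟩ : ∃ l', l = l' + 1 := ⟨l - 1, by have := h.l_pos; omega⟩
        have hk := h.k_eq
        have hq := h.two_le_q
        have : 2 * (l' + 1) ≤ h.q * (l' + 1) := Nat.mul_le_mul_right _ hq
        rw [← hl', mul_comm h.q l] at this
        omega
      have : h.q * 2 ≤ h.q * (k - l) := Nat.mul_le_mul_left _ h2
      have := h.two_le_q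
      omega
    refine step y hy (step x hx hgs y hy hyL) p hpC fun e => hyL ?_
    exact (h.ln_eq (ne_of_off hx ha) (ne_of_off hpC ha) hpL ln_right).1
      (h.ln_perm (ne_of_off hy ha) (fun e' => hyL (e' ▸ hpL)) e |> fun e' =>
        ((h.ln_eq (ne_of_off hy ha) (ne_of_off hpC ha) e ln_right).2 ln_left))
  · exact step x hx hgs p hpC hpL

set_option maxHeartbeats 1000000 in
theorem exists_psl : ∃ (m : ℕ) (F : Type) (_ : Field F) (_ : Fintype F), 2 ≤ m ∧
    Nat.card P = (Fintype.card F ^ (m + 1) - 1) / (Fintype.card F - 1) ∧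
    ∃ N : Subgroup G, N.Normal ∧ Nonempty (N ≃* Matrix.ProjectiveSpecialLinearGroup (Fin (m + 1)) F) ∧
      Subgroup.centralizer (N : Set G) = ⊥ := by
  classical
  obtain ⟨m, F, _, _, φ, hm, hblock⟩ := h.exists_coord
  let W := Fin (m + 1) → F
  have hcard : Nat.card P = ∑ i ∈ Finset.range (m + 1), Fintype.card F ^ i := by
    rw [Nat.card_congr φ, Projectivization.card_of_finrank F W (Module.finrank_fin_fun F),
      Nat.card_eq_fintype_card]
  refine ⟨m, F, inferInstance, inferInstance, hm, by rw [hcard, Nat.geomSum_eq Fintype.one_lt_card], ?_⟩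
  -- every hyperplane is a block
  choose bf hbf0 hbf using hblock
  have hblockinj : Function.Injective fun C => Projectivization.mk F (bf C) (hbf0 C) := by
    intro C D e
    obtain ⟨c, hc⟩ := (Projectivization.mk_eq_mk_iff' F _ _ (hbf0 C) (hbf0 D)).1 e
    refine h.line_eq (S := {p | I p D}) (fun p hp => ⟨(hbf C p).2 ?_, hp⟩) (by rw [h.card_pts]; exact h.l_lt)
    rw [← hc, LinearMap.smul_apply, (hbf D p).1 hp, smul_zero]
  have hblocksurj : ∀ f : Module.Dual F W, f ≠ 0 → ∃ D, ∀ p, I p D ↔ f (φ p).rep = 0 := by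
    intro f hf
    haveI : Finite (Module.Dual F W) := Finite.of_injective (fun f : Module.Dual F W => (f : W → F)) DFunLike.coe_injective
    have hsurj := ((Nat.bijective_iff_injective_and_card _).2 ⟨hblockinj, by
      rw [h.cardL, hcard, Projectivization.card_of_finrank F (Module.Dual F W)
        (Subspace.dual_finrank_eq.trans (Module.finrank_fin_fun F)), Nat.card_eq_fintype_card]⟩).2
    obtain ⟨D, hD⟩ := hsurj (Projectivization.mk F f hf)
    obtain ⟨c, hc⟩ := (Projectivization.mk_eq_mk_iff' F _ _ (hbf0 D) hf).1 hD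
    refine ⟨D, fun p => (hbf D p).trans ?_⟩
    have hc0 : c ≠ 0 := fun e => hbf0 D (by rw [← hc, e, zero_smul])
    rw [← hc, LinearMap.smul_apply, smul_eq_zero, or_iff_right hc0]
  -- transvections
  let σ := Projectivization.PSLAction.toPermHom (K := F) (ι := Fin (m + 1))
  have hρ : ∀ (g : G), Function.Bijective fun w => φ (g • φ.symm w) := fun g =>
    φ.bijective.comp ((MulAction.bijective g).comp φ.symm.bijective)
  let ρ : G →* Equiv.Perm (Projectivization F W) :=
    MonoidHom.mk' (fun g => Equiv.ofBijective _ (hρ g)) fun g g' => Equiv.ext fun w => by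
      simp [Equiv.Perm.mul_apply, mul_smul]
  have hρinj : Function.Injective ρ := (injective_iff_map_eq_one ρ).2 fun g hg => h.faithful g fun p => by
    have := DFunLike.congr_fun hg (φ p)
    simpa [ρ] using this
  have hmat : ∀ (f : Module.Dual F W) (a : W), f a = 0 → ∃ A : Matrix.SpecialLinearGroup (Fin (m + 1)) F,
      ∀ v, A • v = v + f v • a := by
    intro f a hfa
    obtain ⟨A, hA⟩ : ∃ A : Matrix.SpecialLinearGroup (Fin (m + 1)) F,
        A.1 = LinearMap.toMatrix' (LinearMap.transvection f a) :=
      ⟨⟨_, by rw [LinearMap.det_toMatrix', LinearMap.transvection.det, hfa, add_zero]⟩, rfl⟩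
    refine ⟨A, fun v => ?_⟩
    rw [Matrix.SpecialLinearGroup.smul_def, hA]
    simp [LinearMap.toMatrix'_mulVec, LinearMap.transvection.apply]
  -- the action of a transvection agrees with an elation
  have agree : ∀ (C : L) (A : Matrix.SpecialLinearGroup (Fin (m + 1)) F) (a : W), bf C a = 0 →
      (∀ v, A • v = v + bf C v • a) → ∀ g ∈ h.elGrp C, ∀ x, ¬ I x C → φ (g • x) = A • φ x →
      ρ g = σ (QuotientGroup.mk A) := by
    intro C A a hfa hA g hg x hx hgx
    let s : P → P := fun p => φ.symm (A • φ p)
    have hsx : g • x = s x := by simp only [s]; rw [← hgx, φ.symm_apply_apply]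
    have hrep : ∀ (f : Module.Dual F W) p, f (φ (s p)).rep = 0 ↔ f (A • (φ p).rep) = 0 := by
      intro f p
      have hne : A • (φ p).rep ≠ 0 := (smul_ne_zero_iff_ne A).2 (φ p).rep_nonzero
      have : Projectivization.mk F _ (φ (s p)).rep_nonzero = Projectivization.mk F _ hne := by
        rw [Projectivization.mk_rep, ← Projectivization.smul_mk A (φ p).rep_nonzero, Projectivization.mk_rep]
        simp [s]
      obtain ⟨c, hc⟩ := (Projectivization.mk_eq_mk_iff F _ _ _ hne).1 this
      rw [← hc, Units.smul_def, map_smul, smul_eq_zero, or_iff_right c.ne_zero]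
    suffices hall : ∀ p, g • p = s p by
      refine Equiv.ext fun w => ?_
      show φ (g • φ.symm w) = A • w
      rw [hall, φ.apply_symm_apply, φ.apply_symm_apply]
    by_cases ha0 : a = 0
    · have hid : ∀ p, s p = p := fun p => by
        refine φ.symm_apply_eq.2 ?_
        conv_lhs => rw [← (φ p).mk_rep, Projectivization.smul_mk]
        simp [hA, ha0]
      have : g = 1 := h.el_free hg hx (by rw [hsx, hid])
      intro p; rw [this, one_smul, hid]
    have hmv : g • x ≠ x := by
      intro e
      rw [e] at hgx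
      have h1 := hgx.symm
      conv_lhs at h1 => rw [← (φ x).mk_rep, Projectivization.smul_mk]
      conv_rhs at h1 => rw [← (φ x).mk_rep]
      obtain ⟨c, hc⟩ := (Projectivization.mk_eq_mk_iff' F _ _ _ _).1 h1
      have h2 := congrArg (bf C) hc
      rw [hA, map_add, map_smul, map_smul, hfa, smul_zero, add_zero, smul_eq_mul] at h2
      have hx' : bf C (φ x).rep ≠ 0 := fun e' => hx ((hbf C x).2 e')
      have hc1 : c = 1 := mul_right_cancel₀ hx' (h2.trans (one_mul _).symm)
      rw [hA, hc1, one_smul, left_eq_add, smul_eq_zero] at hc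
      exact hc.elim hx' ha0
    let pa : P := φ.symm (Projectivization.mk F a ha0)
    have hpa : ∀ f : Module.Dual F W, f (φ pa).rep = 0 ↔ f a = 0 := fun f => by
      obtain ⟨c, hc⟩ := (Projectivization.mk_eq_mk_iff F _ _ (φ pa).rep_nonzero ha0).1
        ((φ pa).mk_rep.trans (φ.apply_symm_apply _))
      rw [← hc, Units.smul_def, map_smul, smul_eq_zero, or_iff_right c.ne_zero]
    refine h.elation_unique hg s (a := pa) ((hbf C pa).2 ((hpa _).2 hfa)) ?_ ?_ ?_ hx hmv hsx
    · intro p hp
      refine φ.symm_apply_eq.2 ?_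
      conv_lhs => rw [← (φ p).mk_rep, Projectivization.smul_mk]
      simp [hA, (hbf C p).1 hp]
    · intro u v w huvw D hu hv
      rw [hbf] at hu hv ⊢
      rw [hrep] at hu hv ⊢
      let f : Module.Dual F W := (bf D).comp (LinearMap.id + (bf C).smulRight a)
      have hf : ∀ z, f z = bf D (A • z) := fun z => by simp [f, hA]
      by_cases hf0 : f = 0
      · rw [← hf, hf0]; rfl
      obtain ⟨D', hD'⟩ := hblocksurj f hf0
      rw [← hf, ← hD'] at hu hv ⊢
      exact huvw D' hu hv
    · intro p D hp hpa'
      rw [hbf] at hp hpa' ⊢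
      rw [hrep, hA, map_add, map_smul, hp, (hpa _).1 hpa']
      simp
  let N : Subgroup G := (σ.range).comap ρ
  have hN : ∀ C, h.elGrp C ≤ N := by
    intro C g hg
    obtain ⟨x, hx⟩ := h.exists_off C
    have hy := h.el_off hg hx
    have hx' : bf C (φ x).rep ≠ 0 := fun e => hx ((hbf C x).2 e)
    have hy' : bf C (φ (g • x)).rep ≠ 0 := fun e => hy ((hbf C _).2 e)
    let a : W := (bf C (φ (g • x)).rep)⁻¹ • (φ (g • x)).rep - (bf C (φ x).rep)⁻¹ • (φ x).rep
    have hfa : bf C a = 0 := by simp [a, hx', hy']
    obtain ⟨A, hA⟩ := hmat (bf C) a hfa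
    refine Subgroup.mem_comap.2 ⟨QuotientGroup.mk A, (agree C A a hfa hA g hg x hx ?_).symm⟩
    conv_lhs => rw [← (φ (g • x)).mk_rep]
    conv_rhs => rw [← (φ x).mk_rep, Projectivization.smul_mk]
    refine (Projectivization.mk_eq_mk_iff' F _ _ _ _).2 ⟨(bf C (φ (g • x)).rep) / (bf C (φ x).rep), ?_⟩
    rw [hA]
    simp only [a, smul_sub, smul_smul, smul_add]
    field_simp
    module
  let El' : Subgroup G := ⨆ C, h.elGrp C
  have hσ : σ.range ≤ El'.map ρ := by
    haveI : Nontrivial (Fin (m + 1)) := Fin.nontrivial_iff_two_le.2 (by omega)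
    have key : ((El'.map ρ).comap σ).comap (QuotientGroup.mk' _) = ⊤ :=
      Cfsg.Agent.Linear.eq_top_of_transvection_mem _ fun i j hij c => by
        let f : Module.Dual F W := LinearMap.proj j
        let a : W := c • Pi.single i 1
        have hf0 : f ≠ 0 := fun e => by
          have h1 := LinearMap.congr_fun e (Pi.single j (1 : F))
          change (Pi.single j (1 : F) : W) j = 0 at h1
          rw [Pi.single_eq_same] at h1
          exact one_ne_zero h1
        obtain ⟨C, hC⟩ := hblocksurj f hf0
        obtain ⟨x, hx⟩ := h.exists_off C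
        have hbfC : ∀ p, bf C (φ p).rep = 0 ↔ f (φ p).rep = 0 := fun p => ((hbf C p).symm).trans (hC p)
        have hall : ∀ v, bf C v = 0 ↔ f v = 0 := fun v => by
          by_cases hv : v = 0
          · simp [hv]
          have h1 := hbfC (φ.symm (Projectivization.mk F v hv))
          obtain ⟨u, hu⟩ := (Projectivization.mk_eq_mk_iff F _ _ (Projectivization.rep_nonzero _) hv).1
            ((Projectivization.mk_rep _).trans (φ.apply_symm_apply (Projectivization.mk F v hv)))
          rw [← hu, Units.smul_def, map_smul, map_smul, smul_eq_zero, smul_eq_zero] at h1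
          simpa [u.ne_zero] using h1
        have hx' : f (φ x).rep ≠ 0 := fun e => hx ((hC x).2 e)
        let r := f (φ x).rep / bf C (φ x).rep
        have hprop : ∀ v, f v = r * bf C v := fun v => by
          have hb : bf C (φ x).rep ≠ 0 := fun e => hx' ((hall _).1 e)
          have := (hall (v - (bf C v / bf C (φ x).rep) • (φ x).rep)).1 (by simp [hb])
          rw [map_sub, map_smul, smul_eq_mul, sub_eq_zero] at this
          rw [this]; simp only [r]; ring
        let A : Matrix.SpecialLinearGroup (Fin (m + 1)) F := Matrix.SpecialLinearGroup.transvection hij c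
        have hA : ∀ v, A • v = v + bf C v • (r • a) := fun v => by
          rw [smul_smul, mul_comm, ← hprop, Matrix.SpecialLinearGroup.smul_def]
          funext z
          change ((Matrix.transvection i j c).mulVec v) z = (v + (v j) • c • (Pi.single i (1 : F) : W)) z
          rw [Matrix.transvection, Matrix.add_mulVec, Matrix.one_mulVec]
          by_cases hzi : z = i
          · subst hzi
            simp [Matrix.single_mulVec, Function.update_self, mul_comm]
          · simp [Matrix.single_mulVec, hzi]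
        have hfa : bf C (r • a) = 0 := (hall _).2 (by
          show r • c • (Pi.single i (1 : F) : W) j = 0
          rw [Pi.single_eq_of_ne hij.symm]; simp)
        have hy : ¬ I (φ.symm (A • φ x)) C := fun e => hx (by
          rw [hbf] at e ⊢
          obtain ⟨u, hu⟩ := (Projectivization.mk_eq_mk_iff F _ _ (φ (φ.symm (A • φ x))).rep_nonzero
            ((smul_ne_zero_iff_ne A).2 (φ x).rep_nonzero)).1 (by
              rw [Projectivization.mk_rep, φ.apply_symm_apply, ← Projectivization.smul_mk A (φ x).rep_nonzero,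
                Projectivization.mk_rep])
          rw [← hu, Units.smul_def, map_smul, hA, map_add, map_smul, hfa, smul_zero, add_zero, smul_eq_mul] at e
          exact (mul_eq_zero.1 e).resolve_left u.ne_zero)
        obtain ⟨g, hg, hgx⟩ := (h.trans_el C).1 x _ hx hy
        rw [Subgroup.mem_comap, Subgroup.mem_comap]
        exact ⟨g, Subgroup.mem_iSup_of_mem C hg, agree C A (r • a) hfa hA g hg x hx (by rw [hgx, φ.apply_symm_apply])⟩
    rintro π ⟨u, rfl⟩
    induction u using QuotientGroup.induction_on with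
    | H A =>
      have : A ∈ ((El'.map ρ).comap σ).comap (QuotientGroup.mk' _) := key ▸ Subgroup.mem_top A
      exact this
  have hNeq : N = El' := by
    refine le_antisymm (fun g hg => ?_) (iSup_le hN)
    obtain ⟨g', hg', e⟩ := hσ hg
    rwa [← hρinj e]
  have hnorm : N.Normal := ⟨fun u hu a => by
    rw [hNeq] at hu ⊢
    have h1 : El'.map (MulAut.conj a).toMonoidHom ≤ El' := by
      rw [Subgroup.map_iSup]
      refine iSup_le fun C => ?_
      rintro _ ⟨g, hg, rfl⟩
      exact Subgroup.mem_iSup_of_mem (a • C) (h.el_conj_mem hg a)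
    exact h1 ⟨u, hu, rfl⟩⟩
  refine ⟨N, hnorm, ⟨(Subgroup.equivMapOfInjective N ρ hρinj).trans
    ((MulEquiv.subgroupCongr ?_).trans (MonoidHom.ofInjective
      (Matrix.ProjectiveSpecialLinearGroup.toPermHom_injective (K := F) (ι := Fin (m + 1)))).symm)⟩, ?_⟩
  · refine le_antisymm ?_ fun π hπ => ?_
    · rintro _ ⟨g, hg, rfl⟩; exact hg
    · obtain ⟨g, hg, rfl⟩ := hσ hπ
      exact ⟨g, hπ, rfl⟩
  · rw [eq_bot_iff]
    intro z hz
    refine Subgroup.mem_bot.2 (h.eq_one_of_fix_lines fun C => ?_)
    obtain ⟨g, hg, hg1⟩ : ∃ g ∈ h.elGrp C, g ≠ 1 := by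
      obtain ⟨g, hg⟩ := (Subgroup.ne_bot_iff_exists_ne_one).1 (h.elGrp_ne_bot (h.axial C))
      exact ⟨g, g.2, fun e => hg (Subtype.ext e)⟩
    have hzg : g ∈ h.elGrp (z • C) := by
      have h1 := h.el_conj_mem hg z
      have h2 := Subgroup.mem_centralizer_iff.1 hz g (hN C hg)
      rwa [← h2, mul_inv_cancel_right] at h1
    refine h.line_eq (S := {p | I p C}) (fun p hp => ⟨?_, hp⟩) (by rw [h.card_pts]; exact h.l_lt)
    by_contra hpz
    exact hg1 (h.el_free hzg hpz (h.el_fix hg hp))

end Unf

end Cfsg.Agent.ItoDesign
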