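import Cfsg.Agent.ItoDesign.Trans

/-!
Lines and planes of the design, centres of elations.
-/

set_option autoImplicit false
set_option linter.all false

namespace Cfsg.Agent.ItoDesign

/-- The point `c` is on the line through `a` and `b`. -/
def Ln {P L : Type*} (I : P → L → Prop) (a b c : P) : Prop := ∀ C, I a C → I b C → I c C

/-- The point `d` is on the plane through `a`, `b` and `c`. -/
def Pl {P L : Type*} (I : P → L → Prop) (a b c d : P) : Prop := ∀ C, I a C → I b C → I c C → I d C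

section
variable {P L : Type*} {I : P → L → Prop} {a b c : P}
theorem ln_left : Ln I a b a := fun _ h _ => h
theorem ln_right : Ln I a b b := fun _ _ h => h
theorem Ln.swap (h : Ln I a b c) : Ln I b a c := fun C h1 h2 => h C h2 h1
end

theorem ne_of_off {P L : Type*} {I : P → L → Prop} {B : L} {x a : P} (hx : ¬ I x B) (ha : I a B) : x ≠ a :=
  fun e => hx (e ▸ ha)

namespace Unf

variable {G P L : Type*} [Group G] [MulAction G P] [MulAction G L] {I : P → L → Prop} {k l : ℕ}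
  (h : Unf G I k l) [Finite G] [Finite P] [Finite L]
include h

theorem exists_line (a b : P) (hab : a ≠ b) : ∃ C, I a C ∧ I b C := by
  apply Set.nonempty_of_ncard_ne_zero (s := {C | I a C ∧ I b C})
  rw [h.card_pair a b hab]; have := h.l_pos; omega

theorem exists_param : ∃ t, 2 ≤ t ∧ k = l * t + 1 := by
  have hL : 0 < Nat.card L := by rw [h.cardL]; have := h.k_add_two_le; omega
  obtain ⟨B⟩ := (Nat.card_pos_iff.1 hL).1
  exact (h.trans_el B).2

/-- The number of points of a line, less one. -/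
noncomputable def q : ℕ := h.exists_param.choose

theorem two_le_q : 2 ≤ h.q := h.exists_param.choose_spec.1

theorem k_eq : k = l * h.q + 1 := h.exists_param.choose_spec.2

theorem card_off (B : L) : {p | ¬ I p B}.ncard = h.q * (k - l) := by
  have h1 := Set.ncard_add_ncard_compl {p | I p B} (Set.toFinite _) (Set.toFinite _)
  rw [h.card_pts, show {p | I p B}ᶜ = {p | ¬ I p B} from rfl] at h1
  have h2 := h.param''
  rw [show k - 1 = l * h.q by have := h.k_eq; omega, mul_assoc] at h2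
  have h3 := Nat.eq_of_mul_eq_mul_left h.l_pos h2
  omega

/-- Three points not on a line lie in exactly `(l - 1) / q` common blocks. -/
theorem triple {a b c : P} (hab : a ≠ b) (hc : ¬ Ln I a b c) :
    {C | I a C ∧ I b C ∧ I c C}.ncard * h.q + 1 = l := by
  classical
  haveI := Fintype.ofFinite P
  haveI := Fintype.ofFinite L
  simp only [Ln, not_forall] at hc
  obtain ⟨B, ha, hb, hcB⟩ := hc
  have hconst : ∀ x, ¬ I x B → {C | I a C ∧ I b C ∧ I x C}.ncard = {C | I a C ∧ I b C ∧ I c C}.ncard := by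
    intro x hx
    obtain ⟨g, hg, hgc⟩ := (h.trans_el B).1 c x hcB hx
    rw [← Set.ncard_image_of_injective {C | I a C ∧ I b C ∧ I c C} (MulAction.injective g)]
    congr 1
    ext C
    constructor
    · intro hC
      refine ⟨g⁻¹ • C, ⟨?_, ?_, ?_⟩, smul_inv_smul g C⟩
      · rw [← h.mem_inv, h.el_fix hg ha]; exact hC.1
      · rw [← h.mem_inv, h.el_fix hg hb]; exact hC.2.1
      · rw [← h.mem_inv, hgc]; exact hC.2.2
    · rintro ⟨D, hD, rfl⟩
      exact ⟨h.mem_of_fix_point (h.el_fix hg ha) hD.1, h.mem_of_fix_point (h.el_fix hg hb) hD.2.1,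
        hgc ▸ h.smul_mem hD.2.2⟩
  have h1 := Finset.sum_card_bipartiteAbove_eq_sum_card_bipartiteBelow
    (r := fun (x : P) (C : L) => I x C) (s := Finset.univ.filter fun x => ¬ I x B)
    (t := Finset.univ.filter fun C => I a C ∧ I b C)
  simp only [Finset.bipartiteAbove, Finset.bipartiteBelow, Finset.filter_filter] at h1
  have h2 : ∀ C ∈ Finset.univ.filter (fun C => I a C ∧ I b C),
      (Finset.univ.filter fun x => ¬ I x B ∧ I x C).card = if C = B then 0 else k - l := by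
    intro C _
    rw [← Set.ncard_coe_finset, Finset.coe_filter_univ]
    split_ifs with hC
    · simp [hC]
    · rw [show {x | ¬ I x B ∧ I x C} = {x | I x C} \ {x | I x C ∧ I x B} by ext x; simp only [Set.mem_setOf_eq, Set.mem_diff]; tauto,
        Set.ncard_diff (fun x hx => hx.1) (Set.toFinite _), h.card_pts, h.card_meet C B hC]
  rw [Finset.sum_congr rfl h2, Finset.sum_congr rfl (fun x hx => show _ = {C | I a C ∧ I b C ∧ I c C}.ncard by
    rw [← Set.ncard_coe_finset, Finset.coe_filter_univ, ← hconst x (Finset.mem_filter.1 hx).2]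
    simp only [and_assoc]), Finset.sum_const,
    smul_eq_mul, ← Set.ncard_coe_finset, Finset.coe_filter_univ, h.card_off B] at h1
  rw [← Finset.sum_filter_add_sum_filter_not _ (fun C => C = B),
    Finset.sum_eq_zero (fun C hC => if_pos (Finset.mem_filter.1 hC).2), zero_add,
    Finset.sum_congr rfl (fun C hC => if_neg (Finset.mem_filter.1 hC).2), Finset.sum_const, smul_eq_mul,
    Finset.filter_filter, ← Set.ncard_coe_finset, Finset.coe_filter_univ,
    show {C | (I a C ∧ I b C) ∧ ¬C = B} = {C | I a C ∧ I b C} \ {B} from rfl,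
    Set.ncard_diff_singleton_of_mem (show B ∈ {C | I a C ∧ I b C} from ⟨ha, hb⟩), h.card_pair a b hab] at h1
  have hd : 0 < k - l := by have := h.l_lt; omega
  have := h.l_pos
  rw [mul_comm h.q, mul_assoc, mul_comm (k - l)] at h1
  have := Nat.eq_of_mul_eq_mul_right hd h1
  rw [mul_comm h.q] at this
  omega

theorem ln_blocks {a b x y : P} (hab : a ≠ b) (hxy : x ≠ y) (hx : Ln I a b x) (hy : Ln I a b y) (C : L) :
    (I x C ∧ I y C) ↔ (I a C ∧ I b C) := by
  have e : {C | I a C ∧ I b C} = {C | I x C ∧ I y C} :=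
    Set.eq_of_subset_of_ncard_le (fun D hD => ⟨hx D hD.1 hD.2, hy D hD.1 hD.2⟩)
      (by rw [h.card_pair a b hab, h.card_pair x y hxy]) (Set.toFinite _)
  exact (Set.ext_iff.1 e C).symm

theorem ln_eq {a b x y z : P} (hab : a ≠ b) (hxy : x ≠ y) (hx : Ln I a b x) (hy : Ln I a b y) :
    Ln I x y z ↔ Ln I a b z :=
  ⟨fun hz C ha hb => hz C (hx C ha hb) (hy C ha hb),
    fun hz C h1 h2 => hz C ((h.ln_blocks hab hxy hx hy C).1 ⟨h1, h2⟩).1
      ((h.ln_blocks hab hxy hx hy C).1 ⟨h1, h2⟩).2⟩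

/-- `c` on `ab` implies `b` on `ac`. -/
theorem ln_perm {a b c : P} (hab : a ≠ b) (hac : a ≠ c) (hc : Ln I a b c) : Ln I a c b :=
  (h.ln_eq hab hac ln_left hc).2 ln_right

theorem card_line {a b : P} (hab : a ≠ b) : {c | Ln I a b c}.ncard = h.q + 1 := by
  classical
  haveI := Fintype.ofFinite P
  haveI := Fintype.ofFinite L
  have h1 := Finset.sum_card_bipartiteAbove_eq_sum_card_bipartiteBelow
    (r := fun (x : P) (C : L) => I x C) (s := Finset.univ.filter fun x => ¬ Ln I a b x)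
    (t := Finset.univ.filter fun C => I a C ∧ I b C)
  simp only [Finset.bipartiteAbove, Finset.bipartiteBelow, Finset.filter_filter] at h1
  have h2 : ∀ C ∈ Finset.univ.filter (fun C => I a C ∧ I b C),
      (Finset.univ.filter fun x => ¬ Ln I a b x ∧ I x C).card = k - {c | Ln I a b c}.ncard := by
    intro C hC
    obtain ⟨-, haC, hbC⟩ := Finset.mem_filter.1 hC
    rw [← Set.ncard_coe_finset, Finset.coe_filter_univ,
      show {x | ¬ Ln I a b x ∧ I x C} = {x | I x C} \ {c | Ln I a b c} by ext x; exact and_comm,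
      Set.ncard_diff (show {c | Ln I a b c} ⊆ {x | I x C} from fun x hx => hx C haC hbC) (Set.toFinite _), h.card_pts]
  rw [Finset.sum_congr rfl h2, Finset.sum_const, smul_eq_mul, ← Set.ncard_coe_finset, Finset.coe_filter_univ,
    h.card_pair a b hab] at h1
  have h3 : (∑ x ∈ Finset.univ.filter (fun x => ¬ Ln I a b x),
      (Finset.univ.filter fun C => (I a C ∧ I b C) ∧ I x C).card) * h.q =
      {x | ¬ Ln I a b x}.ncard * (l - 1) := by
    rw [Finset.sum_mul, Finset.sum_congr rfl (fun x hx => show _ = l - 1 by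
      have h4 := h.triple hab (Finset.mem_filter.1 hx).2
      rw [← Set.ncard_coe_finset, Finset.coe_filter_univ]
      simp only [and_assoc]
      omega), Finset.sum_const, smul_eq_mul, ← Set.ncard_coe_finset, Finset.coe_filter_univ]
  rw [h1] at h3
  have h5 := Set.ncard_add_ncard_compl {c | Ln I a b c} (Set.toFinite _) (Set.toFinite _)
  obtain ⟨B, haB, hbB⟩ := h.exists_line a b hab
  have h6 : {c | Ln I a b c}.ncard ≤ k := by
    rw [← h.card_pts B]
    exact Set.ncard_le_ncard (fun x hx => hx B haB hbB) (Set.toFinite _)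
  have h7 := Set.ncard_add_ncard_compl {p | I p B} (Set.toFinite _) (Set.toFinite _)
  rw [h.card_pts, show {p | I p B}ᶜ = {p | ¬ I p B} from rfl, h.card_off] at h7
  rw [show {c | Ln I a b c}ᶜ = {x | ¬ Ln I a b x} from rfl] at h5
  generalize {c | Ln I a b c}.ncard = H at *
  generalize {x | ¬ Ln I a b x}.ncard = X at *
  have hk := h.k_eq
  have hl := h.l_pos
  have hlk := h.l_lt
  obtain ⟨w, rfl⟩ : ∃ w, k = H + w := ⟨k - H, by omega⟩
  obtain ⟨l', rfl⟩ : ∃ l', l = l' + 1 := ⟨l - 1, by omega⟩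
  obtain ⟨d, hd⟩ : ∃ d, H + w = l' + 1 + d := ⟨H + w - (l' + 1), by omega⟩
  rw [add_tsub_cancel_left, add_tsub_cancel_right] at h3
  rw [show H + w - (l' + 1) = d by omega] at h7
  have e : ((H : ℤ) - h.q - 1) * d = 0 := by
    zify at h3 h5 h7 hk hd
    linear_combination (d : ℤ) * hk - h3 + (l' : ℤ) * (h7 - h5) + (w : ℤ) * (hd - hk)
  have hd0 : (d : ℤ) ≠ 0 := by omega
  have := (mul_eq_zero.1 e).resolve_right hd0
  omega

/-- A line meets every block. -/
theorem meets (B : L) {x y : P} (hxy : x ≠ y) : ∃ a, I a B ∧ Ln I x y a := by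
  classical
  by_cases hx : I x B
  · exact ⟨x, hx, ln_left⟩
  haveI := Fintype.ofFinite P
  let f : {p // I p B} → Set P := fun a => {z | Ln I x a.1 z} \ {x}
  have hne : ∀ a : {p // I p B}, x ≠ a.1 := fun a e => hx (e ▸ a.2)
  have hdisj : ∀ a b, a ≠ b → Disjoint (f a) (f b) := by
    intro a b hab
    rw [Set.disjoint_left]
    rintro z ⟨hza, hzx⟩ ⟨hzb, -⟩
    have hzx' : x ≠ z := fun e => hzx e.symm
    have hb : Ln I x a.1 b.1 := (h.ln_eq (hne a) hzx' ln_left hza).1 (h.ln_perm (hne b) hzx' hzb)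
    have hab' : a.1 ≠ b.1 := fun e => hab (Subtype.ext e)
    exact hx (((h.ln_eq (hne a) hab' ln_right hb).2 ln_left) B a.2 b.2)
  let U : Finset P := Finset.univ.biUnion fun a : {p // I p B} => (f a).toFinset
  have hU : U.card = k * h.q := by
    rw [Finset.card_biUnion (fun a _ b _ hab => Set.disjoint_toFinset.2 (hdisj a b hab)),
      Finset.sum_congr rfl (fun a _ => show (f a).toFinset.card = h.q by
        rw [← Set.ncard_eq_toFinset_card', Set.ncard_diff_singleton_of_mem ln_left, h.card_line (hne a)]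
        rfl), Finset.sum_const, smul_eq_mul, Finset.card_univ, ← Nat.card_eq_fintype_card, ← Set.coe_setOf,
      Nat.card_coe_set_eq, h.card_pts]
  have hUle : U ⊆ Finset.univ.erase x := by
    intro z hz
    simp only [U, Finset.mem_biUnion, Set.mem_toFinset] at hz
    obtain ⟨a, -, hza, hzx⟩ := hz
    exact Finset.mem_erase.2 ⟨hzx, Finset.mem_univ _⟩
  have hcard : (Finset.univ.erase x).card = U.card := by
    rw [hU, Finset.card_erase_of_mem (Finset.mem_univ x), Finset.card_univ, ← Nat.card_eq_fintype_card]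
    have h1 := h.param
    rw [show k - 1 = l * h.q by have := h.k_eq; omega] at h1
    have h2 : l * (k * h.q) = l * (Nat.card P - 1) := by rw [← h1]; ring
    exact (Nat.eq_of_mul_eq_mul_left h.l_pos h2).symm
  have := Finset.eq_of_subset_of_card_le hUle hcard.le
  have hy : y ∈ U := this.symm ▸ Finset.mem_erase.2 ⟨Ne.symm hxy, Finset.mem_univ _⟩
  simp only [U, Finset.mem_biUnion, Set.mem_toFinset] at hy
  obtain ⟨a, -, hya, -⟩ := hy
  exact ⟨a.1, a.2, (h.ln_eq (hne a) hxy ln_left hya).2 ln_right⟩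

/-- A line in the plane of `a`, `b`, `c` meets the line `ab`. -/
theorem plane_meet {a b c u w : P} (hab : a ≠ b) (hc : ¬ Ln I a b c) (huw : u ≠ w)
    (hu : Pl I a b c u) (hw : Pl I a b c w) :
    ∃ p, Ln I u w p ∧ Ln I a b p := by
  have hc' := hc
  simp only [Ln, not_forall] at hc
  obtain ⟨C, ha, hb, hcC⟩ := hc
  obtain ⟨p, hpC, hp⟩ := h.meets C huw
  refine ⟨p, hp, ?_⟩
  by_contra hpab
  have hsub : {D | I a D ∧ I b D ∧ I c D} ⊆ {D | I a D ∧ I b D ∧ I p D} := fun D hD =>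
    ⟨hD.1, hD.2.1, hp D (hu D hD.1 hD.2.1 hD.2.2) (hw D hD.1 hD.2.1 hD.2.2)⟩
  have h1 := h.triple hab hc'
  have h2 := h.triple hab hpab
  have hle : {D | I a D ∧ I b D ∧ I p D}.ncard ≤ {D | I a D ∧ I b D ∧ I c D}.ncard :=
    le_of_eq (Nat.eq_of_mul_eq_mul_right (by have := h.two_le_q; omega) (Nat.add_right_cancel (h2.trans h1.symm)))
  have e := Set.eq_of_subset_of_ncard_le hsub hle (Set.toFinite _)
  exact hcC ((Set.ext_iff.1 e C).2 ⟨ha, hb, hpC⟩).2.2

theorem eq_of_ln_block {B : L} {x a b : P} (hx : ¬ I x B) (ha : I a B) (hb : I b B) (hl : Ln I x a b) : a = b := by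
  by_contra hab
  exact hx (((h.ln_eq (ne_of_off hx ha) hab ln_right hl).2 ln_left) B ha hb)

theorem ln_smul {g : G} {a b c : P} (hc : Ln I a b c) : Ln I (g • a) (g • b) (g • c) := fun C h1 h2 => by
  rw [h.mem_inv] at h1 h2 ⊢
  exact hc _ h1 h2

theorem el_off {B : L} {g : G} (hg : g ∈ h.elGrp B) {x : P} (hx : ¬ I x B) : ¬ I (g • x) B := fun e =>
  hx ((h.mem_fix_iff (h.el_smul hg)).1 e)

/-- Every elation has a centre. -/
theorem exists_centre {B : L} {g : G} (hg : g ∈ h.elGrp B) :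
    ∃ a, I a B ∧ ∀ x, ¬ I x B → Ln I x a (g • x) := by
  by_cases hg1 : g = 1
  · obtain ⟨a, ha⟩ : ∃ a, I a B := by
      apply Set.nonempty_of_ncard_ne_zero (s := {p | I p B})
      rw [h.card_pts]; have := h.two_le; omega
    exact ⟨a, ha, fun x hx => by rw [hg1, one_smul]; exact ln_left⟩
  obtain ⟨x, hx⟩ : ∃ x, ¬ I x B := by
    apply Set.nonempty_of_ncard_ne_zero (s := {p | ¬ I p B})
    rw [h.card_off]
    exact Nat.mul_ne_zero (by have := h.two_le_q; omega) (by have := h.l_lt; omega)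
  have hmove : ∀ {z : P}, ¬ I z B → z ≠ g • z := fun {z} hz e => hg1 (h.el_free hg hz e.symm)
  obtain ⟨a, ha, hax⟩ := h.meets B (hmove hx)
  have hxa : x ≠ a := fun e => hx (e ▸ ha)
  have hgxa : Ln I x a (g • x) := h.ln_perm (hmove hx) hxa hax
  refine ⟨a, ha, fun y hy => ?_⟩
  have hya : y ≠ a := fun e => hy (e ▸ ha)
  have hgline : ∀ {z p : P}, ¬ I z B → Ln I z (g • z) p → Ln I z (g • z) (g • p) := by
    intro z p hz hp
    obtain ⟨b, hb, hbz⟩ := h.meets B (hmove hz)
    have h1 := h.ln_smul (g := g) ((h.ln_eq (hmove hz) (ne_of_off hz hb) ln_left hbz).2 hp)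
    rw [h.el_fix hg hb] at h1
    exact (h.ln_eq (hmove hz) (ne_of_off (h.el_off hg hz) hb) ln_right hbz).1 h1
  by_cases hyL : Ln I x a y
  · have h1 := h.ln_smul (g := g) hyL
    rw [h.el_fix hg ha] at h1
    have h2 : Ln I x a (g • y) := (h.ln_eq hxa (ne_of_off (h.el_off hg hx) ha) hgxa ln_right).1 h1
    exact (h.ln_eq hxa hya hyL ln_right).2 h2
  have hxy : x ≠ y := fun e => hyL (e ▸ ln_left)
  obtain ⟨b, hb, hby⟩ := h.meets B hxy
  have hba : b ≠ a := fun e => hyL (h.ln_perm hxy hxa (e ▸ hby))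
  have hxb : x ≠ b := fun e => hx (e ▸ hb)
  have hyb : Ln I x b y := h.ln_perm hxy hxb hby
  have hbnot : ¬ Ln I x (g • x) b := fun e =>
    hba.symm (h.eq_of_ln_block hx ha hb ((h.ln_eq (hmove hx) hxa ln_left hax).2 e))
  have hyP : Pl I x (g • x) b y := fun C h1 h2 h3 => hyb C h1 h3
  have hgyP : Pl I x (g • x) b (g • y) := fun C h1 h2 h3 => by
    have h4 := h.ln_smul (g := g) hyb
    rw [h.el_fix hg hb] at h4
    exact h4 C h2 h3
  obtain ⟨p, hpy, hpx⟩ := h.plane_meet (hmove hx) hbnot (hmove hy) hyP hgyP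
  have h1 := hgline hy hpy
  have h2 := hgline hx hpx
  by_cases hgp : g • p = p
  · have hpB : I p B := by_contra fun hp => hmove hp hgp.symm
    have hpa : a = p := h.eq_of_ln_block hx ha hpB ((h.ln_eq (hmove hx) hxa ln_left hax).2 hpx)
    subst hpa
    exact h.ln_perm (hmove hy) hya hpy
  · exfalso
    apply hyL
    have e1 : Ln I x (g • x) y :=
      (h.ln_eq (hmove hx) (Ne.symm hgp) hpx h2).1 ((h.ln_eq (hmove hy) (Ne.symm hgp) hpy h1).2 ln_left)
    exact (h.ln_eq (hmove hx) hxa ln_left hax).2 e1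

/-- The elations with axis `B` and centre `a`. -/
noncomputable def dirGrp (B : L) (a : P) : Subgroup G where
  carrier := {g | g ∈ h.elGrp B ∧ ∀ C, I a C → g • C = C}
  one_mem' := ⟨(h.elGrp B).one_mem, fun C _ => one_smul G C⟩
  mul_mem' := fun {g f} hg hf => ⟨(h.elGrp B).mul_mem hg.1 hf.1,
    fun C hC => by rw [mul_smul, hf.2 C hC, hg.2 C hC]⟩
  inv_mem' := fun {g} hg => ⟨(h.elGrp B).inv_mem hg.1, fun C hC => inv_smul_eq_iff.2 (hg.2 C hC).symm⟩

theorem mem_dirGrp {B : L} {a : P} {g : G} :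
    g ∈ h.dirGrp B a ↔ g ∈ h.elGrp B ∧ ∀ C, I a C → g • C = C := Iff.rfl

theorem dir_ln {B : L} {a : P} {g : G} (hg : g ∈ h.dirGrp B a) (x : P) : Ln I x a (g • x) :=
  fun C hx ha => h.mem_of_fix_line (hg.2 C ha) hx

theorem mem_dir_of_ln {B : L} {a : P} {g : G} (hg : g ∈ h.elGrp B) (ha : I a B)
    (hln : ∀ x, ¬ I x B → Ln I x a (g • x)) : g ∈ h.dirGrp B a := by
  refine ⟨hg, fun C hC => ?_⟩
  by_cases hCB : C = B
  · rw [hCB, h.el_smul hg]
  obtain ⟨x, hxC, hx⟩ : ∃ x, I x C ∧ ¬ I x B := by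
    by_contra hc
    push Not at hc
    exact hCB (h.line_eq (S := {p | I p C}) (fun p hp => ⟨hp, hc p hp⟩) (by rw [h.card_pts]; exact h.l_lt))
  refine h.line_eq (S := insert (g • x) {p | I p C ∧ I p B}) (fun p hp => ?_) ?_
  · rcases hp with rfl | hp
    · exact ⟨h.smul_mem hxC, hln x hx C hxC hC⟩
    · exact ⟨h.mem_of_fix_point (h.el_fix hg hp.2) hp.1, hp.1⟩
  · rw [Set.ncard_insert_of_notMem (fun e => h.el_off hg hx e.2) (Set.toFinite _), h.card_meet C B hCB]
    exact Nat.lt_succ_self l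

theorem exists_dir {B : L} {g : G} (hg : g ∈ h.elGrp B) : ∃ a, I a B ∧ g ∈ h.dirGrp B a :=
  let ⟨a, ha, hln⟩ := h.exists_centre hg
  ⟨a, ha, h.mem_dir_of_ln hg ha hln⟩

theorem exists_off (B : L) : ∃ x, ¬ I x B := by
  apply Set.nonempty_of_ncard_ne_zero (s := {p | ¬ I p B})
  rw [h.card_off]
  exact Nat.mul_ne_zero (by have := h.two_le_q; omega) (by have := h.l_lt; omega)

theorem dir_disj {B : L} {a b : P} {g : G} (ha : I a B) (hb : I b B) (hab : a ≠ b) (h1 : g ∈ h.dirGrp B a)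
    (h2 : g ∈ h.dirGrp B b) : g = 1 := by
  obtain ⟨x, hx⟩ := h.exists_off B
  by_contra hg
  have hmove : x ≠ g • x := fun e => hg (h.el_free h1.1 hx e.symm)
  exact hab (h.eq_of_ln_block hx ha hb ((h.ln_eq (ne_of_off hx ha) hmove ln_left (h.dir_ln h1 x)).1
    (h.ln_perm (ne_of_off hx hb) hmove (h.dir_ln h2 x))))

theorem mem_dir_of_point {B : L} {a x : P} {g : G} (hg : g ∈ h.elGrp B) (ha : I a B) (hx : ¬ I x B)
    (hln : Ln I x a (g • x)) : g ∈ h.dirGrp B a := by
  by_cases hg1 : g = 1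
  · rw [hg1]; exact (h.dirGrp B a).one_mem
  obtain ⟨b, hb, hgb⟩ := h.exists_dir hg
  have hmove : x ≠ g • x := fun e => hg1 (h.el_free hg hx e.symm)
  have hxb : x ≠ b := fun e => hx (e ▸ hb)
  have hxa : x ≠ a := fun e => hx (e ▸ ha)
  have : a = b := h.eq_of_ln_block hx ha hb
    ((h.ln_eq hxa hmove ln_left hln).1 (h.ln_perm hxb hmove (h.dir_ln hgb x)))
  exact this ▸ hgb

theorem card_dir {B : L} {a : P} (ha : I a B) : Nat.card (h.dirGrp B a) = h.q := by
  obtain ⟨x, hx⟩ := h.exists_off B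
  have hxa : x ≠ a := fun e => hx (e ▸ ha)
  have hrange : (fun g : h.dirGrp B a => (g : G) • x) '' Set.univ = {z | Ln I x a z} \ {a} := by
    ext z
    constructor
    · rintro ⟨g, -, rfl⟩
      exact ⟨h.dir_ln g.2 x, ne_of_off (h.el_off g.2.1 hx) ha⟩
    · rintro ⟨hz, hza⟩
      have hzB : ¬ I z B := fun e => hza (h.eq_of_ln_block hx ha e hz).symm
      obtain ⟨g, hg, hgx⟩ := (h.trans_el B).1 x z hx hzB
      exact ⟨⟨g, h.mem_dir_of_point hg ha hx (hgx.symm ▸ hz)⟩, trivial, hgx⟩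
  have h1 := congrArg Set.ncard hrange
  rw [Set.ncard_image_of_injective _ (fun g f e => ?_), Set.ncard_univ,
    Set.ncard_diff_singleton_of_mem (show a ∈ {z | Ln I x a z} from ln_right), h.card_line hxa] at h1
  · simpa using h1
  · refine (inv_mul_eq_one.1 (Subtype.ext (h.el_free (f⁻¹ * g).2.1 hx ?_) : f⁻¹ * g = 1)).symm
    show ((f : G)⁻¹ * (g : G)) • x = x
    rw [mul_smul, show (g : G) • x = (f : G) • x from e, inv_smul_smul]

/-- Elations with the same axis commute. -/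
theorem el_comm {B : L} {g f : G} (hg : g ∈ h.elGrp B) (hf : f ∈ h.elGrp B) : g * f = f * g := by
  have key : ∀ {g f : G} {a b : P}, I a B → I b B → a ≠ b → g ∈ h.dirGrp B a → f ∈ h.dirGrp B b →
      g * f = f * g := by
    intro g f a b ha hb hab hg hf
    obtain ⟨x, hx⟩ := h.exists_off B
    have hT : (f * g)⁻¹ * (g * f) ∈ h.elGrp B :=
      (h.elGrp B).mul_mem ((h.elGrp B).inv_mem ((h.elGrp B).mul_mem hf.1 hg.1)) ((h.elGrp B).mul_mem hg.1 hf.1)
    by_contra hne
    have hmove : (g * f) • x ≠ (f * g) • x := fun e => hne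
      (inv_mul_eq_one.1 (h.el_free hT hx (by rw [mul_smul (f * g)⁻¹, e, inv_smul_smul]))).symm
    -- both points lie on two distinct lines
    have hfx := h.el_off hf.1 hx
    have hgx := h.el_off hg.1 hx
    have l1 : Ln I (f • x) a ((g * f) • x) := by rw [mul_smul]; exact h.dir_ln hg _
    have l2 : Ln I (f • x) a ((f * g) • x) := by
      have := h.ln_smul (g := f) (h.dir_ln hg x)
      rw [h.el_fix hf.1 ha] at this
      rwa [mul_smul]
    have l3 : Ln I (g • x) b ((f * g) • x) := by rw [mul_smul]; exact h.dir_ln hf _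
    have l4 : Ln I (g • x) b ((g * f) • x) := by
      have := h.ln_smul (g := g) (h.dir_ln hf x)
      rw [h.el_fix hg.1 hb] at this
      rwa [mul_smul]
    have hbl : Ln I (f • x) a b := (h.ln_eq (ne_of_off hfx ha) hmove l1 l2).1
      ((h.ln_eq (ne_of_off hgx hb) hmove l4 l3).2 ln_right)
    exact hab (h.eq_of_ln_block hfx ha hb hbl)
  obtain ⟨a, ha, hga⟩ := h.exists_dir hg
  obtain ⟨b, hb, hfb⟩ := h.exists_dir hf
  by_cases hab : a = b
  · subst hab
    by_cases hf1 : f = 1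
    · rw [hf1, one_mul, mul_one]
    obtain ⟨c, hc, hca⟩ : ∃ c, I c B ∧ c ≠ a := by
      by_contra hcon
      push Not at hcon
      have := Set.ncard_le_ncard (s := {p | I p B}) (t := {a}) (fun p hp => hcon p hp)
      rw [h.card_pts, Set.ncard_singleton] at this
      have := h.two_le; omega
    obtain ⟨u, hu, hu1⟩ : ∃ u ∈ h.dirGrp B c, u ≠ 1 := by
      haveI : Nontrivial (h.dirGrp B c) := Finite.one_lt_card_iff_nontrivial.1
        (by rw [h.card_dir hc]; have := h.two_le_q; omega)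
      obtain ⟨u, hu⟩ := exists_ne (1 : h.dirGrp B c)
      exact ⟨u, u.2, fun e => hu (Subtype.ext e)⟩
    obtain ⟨d, hd, hfud⟩ := h.exists_dir ((h.elGrp B).mul_mem hf hu.1)
    have hda : a ≠ d := fun e => hu1 (h.dir_disj ha hc hca.symm (by
      have := (h.dirGrp B a).mul_mem ((h.dirGrp B a).inv_mem hfb) (e ▸ hfud)
      rwa [inv_mul_cancel_left] at this) hu)
    have h1 := key ha hd hda hga hfud
    have h2 := key ha hc hca.symm hga hu
    rw [← mul_right_cancel_iff (a := u), mul_assoc, h1, mul_assoc f g u, h2, mul_assoc]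
  · exact key ha hb hab hga hfb

/-- The planes of the translation group. -/
theorem dir_plane {B : L} {a b c : P} {f g₁ g₂ : G} (ha : I a B) (hb : I b B) (hc : I c B) (hbc : b ≠ c)
    (hg₁ : g₁ ∈ h.dirGrp B b) (hg₂ : g₂ ∈ h.dirGrp B c) (hg : g₁ * g₂ ∈ h.dirGrp B a) (hne : g₁ * g₂ ≠ 1)
    (hf : f ∈ h.dirGrp B a) : ∃ f₁ ∈ h.dirGrp B b, ∃ f₂ ∈ h.dirGrp B c, f = f₁ * f₂ := by
  obtain ⟨x, hx⟩ := h.exists_off B
  have hxb : x ≠ b := fun e => hx (e ▸ hb)
  have hxc : x ≠ c := fun e => hx (e ▸ hc)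
  have hxa : x ≠ a := fun e => hx (e ▸ ha)
  have hcn : ¬ Ln I x c b := fun e => hbc (h.eq_of_ln_block hx hc hb e).symm
  have hmove : x ≠ (g₁ * g₂) • x := fun e => hne (h.el_free hg.1 hx e.symm)
  have hgP : Pl I x c b ((g₁ * g₂) • x) := fun C h1 h2 h3 => by
    rw [mul_smul]
    exact h.dir_ln hg₁ _ C (h.dir_ln hg₂ x C h1 h2) h3
  have haP : Pl I x c b a := fun C h1 h2 h3 =>
    h.ln_perm hxa hmove (h.dir_ln hg x) C h1 (hgP C h1 h2 h3)
  have hzP : Pl I x c b (f • x) := fun C h1 h2 h3 => h.dir_ln hf x C h1 (haP C h1 h2 h3)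
  have hz := h.el_off hf.1 hx
  have hzb : f • x ≠ b := fun e => hz (e ▸ hb)
  obtain ⟨p, hp1, hp2⟩ := h.plane_meet hxc hcn hzb hzP (fun C _ _ h3 => h3)
  have hpB : ¬ I p B := fun e =>
    hbc ((h.eq_of_ln_block hz hb e hp1).trans (h.eq_of_ln_block hx hc e hp2).symm)
  obtain ⟨f₂, hf₂, hf₂x⟩ := (h.trans_el B).1 x p hx hpB
  have hd2 := h.mem_dir_of_point hf₂ hc hx (hf₂x.symm ▸ hp2)
  obtain ⟨f₁, hf₁, hf₁p⟩ := (h.trans_el B).1 p (f • x) hpB hz
  have hpb : p ≠ b := fun e => hpB (e ▸ hb)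
  have hd1 := h.mem_dir_of_point hf₁ hb hpB (hf₁p.symm ▸ (h.ln_eq hzb hpb hp1 ln_right).2 ln_left)
  refine ⟨f₁, hd1, f₂, hd2, ?_⟩
  refine (inv_mul_eq_one.1 (h.el_free ((h.elGrp B).mul_mem ((h.elGrp B).inv_mem
    ((h.elGrp B).mul_mem hf₁ hf₂)) hf.1) hx ?_)).symm
  rw [mul_smul, inv_smul_eq_iff, mul_smul, hf₂x, hf₁p]

end Unf

end Cfsg.Agent.ItoDesign
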