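import Cfsg.Agent.ItoDesign.Kernel

/-!
If some automorphism fixes a block pointwise, the block stabilizer is doubly transitive on the block and the
elations with that axis are transitive on the points off it.
-/

set_option autoImplicit false
set_option linter.all false

namespace Cfsg.Agent.ItoDesign

/-- A setting in which every block has a nontrivial axial automorphism. -/
structure Unf (G : Type*) [Group G] {P L : Type*} [MulAction G P] [MulAction G L] (I : P → L → Prop)
    (k l : ℕ) : Prop extends Setting G I k l where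
  axial : ∀ B : L, axGrp (G := G) I B ≠ ⊥

theorem arith {k l t e q : ℕ} (ht : 2 ≤ t) (he : 2 ≤ e) (hl : 1 ≤ l) (hlk : l < k) (hq : k - 1 = t * q)
    (hkey : k * (e - 1) = l * (t * e - 1)) (hle : k ≤ t * e - 1) : k = l * t + 1 ∧ k - l = e := by
  have hte : 1 ≤ t * e := Nat.mul_pos (by omega) (by omega)
  have h1 : k * e + l = l * t * e + k := by
    obtain ⟨e', rfl⟩ : ∃ e', e = e' + 1 := ⟨e - 1, by omega⟩
    obtain ⟨s', hs'⟩ : ∃ s', t * (e' + 1) = s' + 1 := ⟨t * (e' + 1) - 1, by omega⟩
    rw [hs', add_tsub_cancel_right, add_tsub_cancel_right] at hkey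
    rw [mul_assoc l t, hs', mul_add, mul_one, hkey]
    ring
  have h2 : l * t < k := by
    by_contra hc
    push Not at hc
    have := Nat.mul_le_mul_right e hc
    omega
  obtain ⟨u, rfl⟩ : ∃ u, k = l * t + u := ⟨k - l * t, by omega⟩
  have h3 : u * e + l = l * t + u := by rw [add_mul] at h1; omega
  have hdvd : t ∣ u - 1 := by
    have h4 : t ∣ l * t + (u - 1) := ⟨q, by omega⟩
    exact (Nat.dvd_add_right (dvd_mul_left t l)).1 h4
  by_cases hu : u = 1
  · subst hu; omega
  exfalso
  have hut : t ≤ u - 1 := Nat.le_of_dvd (by omega) hdvd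
  have h5 : e ≤ l := by
    by_contra hc
    push Not at hc
    have h6 : u * (l + 1) ≤ u * e := Nat.mul_le_mul_left _ hc
    have h7 : l * t ≤ l * (u - 1) := Nat.mul_le_mul_left _ hut
    rw [Nat.mul_sub, mul_one] at h7
    rw [mul_add, mul_one, mul_comm u l] at h6
    omega
  have h8 : t * e ≤ l * t := by rw [mul_comm l t]; exact Nat.mul_le_mul_left _ h5
  omega

namespace Unf

variable {G P L : Type*} [Group G] [MulAction G P] [MulAction G L] {I : P → L → Prop} {k l : ℕ}
  (h : Unf G I k l) [Finite G] [Finite P] [Finite L]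
include h

theorem el_smul {B : L} {g : G} (hg : g ∈ h.elGrp B) : g • B = B :=
  h.smul_axis (h.mem_elGrp.1 hg).1

theorem el_fix {B : L} {g : G} (hg : g ∈ h.elGrp B) {p : P} (hp : I p B) : g • p = p :=
  (h.mem_elGrp.1 hg).1 p hp

theorem el_free {B : L} {g : G} (hg : g ∈ h.elGrp B) {p : P} (hp : ¬ I p B) (e : g • p = p) : g = 1 :=
  (h.mem_elGrp.1 hg).2.resolve_right fun hf => hf p hp e

theorem el_conj_mem {B : L} {g : G} (hg : g ∈ h.elGrp B) (a : G) : a * g * a⁻¹ ∈ h.elGrp (a • B) :=
  h.mem_elGrp.2 (h.el_conj (h.mem_elGrp.1 hg) a)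

/-- A nontrivial elation fixes exactly `k` blocks. -/
theorem el_fixed_lines {B : L} {g : G} (hg : g ∈ h.elGrp B) (hg1 : g ≠ 1) :
    {C : L | g • C = C}.ncard = k := by
  rw [← h.fixed_eq, show {p : P | g • p = p} = {p | I p B} from Set.ext fun p =>
    ⟨fun e => by_contra fun hp => hg1 (h.el_free hg hp e), fun hp => h.el_fix hg hp⟩, h.card_pts]

theorem image_orbit (a : G) (B C : L) :
    (a • ·) '' MulAction.orbit (h.elGrp B) C = MulAction.orbit (h.elGrp (a • B)) (a • C) := by
  ext E
  constructor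
  · rintro ⟨_, ⟨g, rfl⟩, rfl⟩
    refine ⟨⟨_, h.el_conj_mem g.2 a⟩, ?_⟩
    show (a * (g : G) * a⁻¹) • a • C = a • (g : G) • C
    rw [mul_smul, mul_smul, inv_smul_smul]
  · rintro ⟨g, rfl⟩
    have := h.el_conj_mem g.2 a⁻¹
    rw [inv_smul_smul] at this
    refine ⟨(a⁻¹ * (g : G) * a⁻¹⁻¹) • C, ⟨⟨_, this⟩, rfl⟩, ?_⟩
    show a • (a⁻¹ * (g : G) * a⁻¹⁻¹) • C = (g : G) • a • C
    rw [inv_inv, mul_smul, mul_smul, smul_inv_smul]

theorem exists_orbit_size :
    ∃ t, 2 ≤ t ∧ ∀ B C : L, C ≠ B → (MulAction.orbit (h.elGrp B) C).ncard = t := by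
  have hL : 2 ≤ Nat.card L := by rw [h.cardL]; have := h.k_add_two_le; omega
  haveI : Nontrivial L := Finite.one_lt_card_iff_nontrivial.1 (by omega)
  obtain ⟨B₀, C₀, hne⟩ := exists_pair_ne L
  have key : ∀ B C B' C' : L, C ≠ B → C' ≠ B' →
      (MulAction.orbit (h.elGrp B) C).ncard = (MulAction.orbit (h.elGrp B') C').ncard := by
    intro B C B' C' hC hC'
    obtain ⟨a, ha⟩ := h.trans_lns B B'
    obtain ⟨b, hbB, hbC⟩ := h.trans_other B' (a • C) C' (fun e => hC (smul_left_cancel a (e.trans ha.symm))) hC'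
    have h1 := h.image_orbit (b * a) B C
    rw [mul_smul, mul_smul, ha, hbB, hbC] at h1
    rw [← h1, Set.ncard_image_of_injective _ (MulAction.injective _)]
  refine ⟨(MulAction.orbit (h.elGrp B₀) C₀).ncard, ?_, fun B C hC => key B C B₀ C₀ hC hne.symm⟩
  by_contra hlt
  obtain ⟨g, hg, hg1⟩ : ∃ g ∈ h.elGrp B₀, g ≠ 1 :=
    ((Subgroup.ne_bot_iff_exists_ne_one).1 (h.elGrp_ne_bot (h.axial B₀))).elim
      fun g hg => ⟨g, g.2, fun e => hg (Subtype.ext e)⟩
  refine hg1 (h.eq_one_of_fix_lines fun C => ?_)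
  by_cases hC : C = B₀
  · rw [hC, h.el_smul hg]
  · have h1 := key B₀ C B₀ C₀ hC hne.symm
    have h2 : (MulAction.orbit (h.elGrp B₀) C).ncard ≤ 1 := by omega
    exact (Set.ncard_le_one (Set.toFinite _)).1 h2 _ ⟨⟨g, hg⟩, rfl⟩ _ (MulAction.mem_orbit_self C)

/-- The stabilizer of a block is doubly transitive on the block. -/
theorem two_trans_block {B : L} {a b a' b' : P} (hab : a ≠ b) (hab' : a' ≠ b') (ha : I a B) (hb : I b B)
    (ha' : I a' B) (hb' : I b' B) : ∃ g : G, g • B = B ∧ g • a = a' ∧ g • b = b' := by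
  classical
  obtain ⟨t, ht, horb⟩ := h.exists_orbit_size
  obtain ⟨g, hga, hgb⟩ := h.two_trans a b a' b' hab hab'
  let Y : Subgroup G :=
    { carrier := {y | y • a' = a' ∧ y • b' = b'}
      one_mem' := ⟨one_smul _ _, one_smul _ _⟩
      mul_mem' := fun {x y} hx hy => ⟨by rw [mul_smul, hy.1, hx.1], by rw [mul_smul, hy.2, hx.2]⟩
      inv_mem' := fun {x} hx => ⟨inv_smul_eq_iff.2 hx.1.symm, inv_smul_eq_iff.2 hx.2.symm⟩ }
  let S : Set L := {C | I a' C ∧ I b' C}
  have hY : ∀ C ∈ S, ∀ y ∈ h.elGrp C, y ∈ Y := fun C hC y hy => ⟨h.el_fix hy hC.1, h.el_fix hy hC.2⟩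
  have hSinv : ∀ y ∈ Y, ∀ C ∈ S, y • C ∈ S := fun y hy C hC =>
    ⟨h.mem_of_fix_point hy.1 hC.1, h.mem_of_fix_point hy.2 hC.2⟩
  by_cases hmem : g • B ∈ MulAction.orbit Y B
  · obtain ⟨y, hy⟩ := hmem
    have hy' : (y : G) • B = g • B := hy
    refine ⟨(y : G)⁻¹ * g, ?_, ?_, ?_⟩
    · rw [mul_smul, ← hy', inv_smul_smul]
    · rw [mul_smul, hga, inv_smul_eq_iff]; exact (y.2.1).symm
    · rw [mul_smul, hgb, inv_smul_eq_iff]; exact (y.2.2).symm
  exfalso
  have hB : B ∈ S := ⟨ha', hb'⟩
  have hgB : g • B ∈ S := ⟨hga ▸ h.smul_mem ha, hgb ▸ h.smul_mem hb⟩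
  -- orbit sizes of `Y` are congruent both to zero and to one
  let O := MulAction.orbit Y B
  have hOS : O ⊆ S := by rintro C ⟨y, rfl⟩; exact hSinv y y.2 B hB
  have hinv : ∀ C ∈ S, ∀ (z : h.elGrp C), ∀ E ∈ O, z • E ∈ O := by
    rintro C hC z E ⟨y, rfl⟩
    exact ⟨⟨z, hY C hC z z.2⟩ * y, mul_smul _ _ _⟩
  have h0 : t ∣ O.ncard := dvd_ncard (T := h.elGrp (g • B)) O (hinv _ hgB)
    fun E hE => horb _ E fun e => hmem (e ▸ hE)
  have hBO : B ∈ O := MulAction.mem_orbit_self B
  have h1 : t ∣ (O \ {B}).ncard := by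
    refine dvd_ncard (T := h.elGrp B) _ (fun z E hE => ⟨hinv B hB z E hE.1, fun e => hE.2 ?_⟩)
      fun E hE => horb _ E hE.2
    have e' : (z : G) • E = B := e
    exact smul_left_cancel _ (e'.trans (h.el_smul z.2).symm)
  rw [← Set.ncard_diff_singleton_add_one hBO (Set.toFinite _)] at h0
  have := (Nat.dvd_add_right h1).1 h0
  rw [Nat.dvd_one] at this
  omega

set_option maxHeartbeats 1000000 in
/-- The elations with a given axis act transitively off it, and `k - 1` is a proper multiple of `l`. -/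
theorem trans_el (B : L) : (∀ x y, ¬ I x B → ¬ I y B → ∃ g ∈ h.elGrp B, g • x = y) ∧
    ∃ t, 2 ≤ t ∧ k = l * t + 1 := by
  classical
  haveI := Fintype.ofFinite L
  haveI := Fintype.ofFinite P
  haveI := Fintype.ofFinite G
  obtain ⟨t, ht, horb⟩ := h.exists_orbit_size
  let T := h.elGrp B
  let E : Finset L := Finset.univ.filter fun C => C ≠ B
  let T1 : Finset G := Finset.univ.filter fun g => g ∈ T ∧ g ≠ 1
  -- `r g a` blocks other than `B` through `a` are fixed by `g`
  let r : G → P → ℕ := fun g a => (E.filter fun C => g • C = C ∧ I a C).card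
  have hcardE : E.card = Nat.card P - 1 := by
    rw [← h.cardL, Nat.card_eq_fintype_card, show E = Finset.univ.erase B by ext C; simp [E],
      Finset.card_erase_of_mem (Finset.mem_univ B), Finset.card_univ]
  have hfixg : ∀ g ∈ T1, (E.filter fun C => g • C = C).card = k - 1 := by
    intro g hg
    simp only [T1, Finset.mem_filter, Finset.mem_univ, true_and] at hg
    have h1 := h.el_fixed_lines hg.1 hg.2
    rw [← Set.ncard_coe_finset, show (↑(E.filter fun C => g • C = C) : Set L) = {C | g • C = C} \ {B} by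
      ext C; simp [E, and_comm], Set.ncard_diff_singleton_of_mem (show B ∈ {C | g • C = C} from h.el_smul hg.1),
      h1]
  obtain ⟨C₀, hC₀⟩ : ∃ C, C ≠ B := by
    haveI : Nontrivial L := Finite.one_lt_card_iff_nontrivial.1
      (by rw [h.cardL]; have := h.k_add_two_le; omega)
    exact exists_ne B
  let e := Nat.card (MulAction.stabilizer T C₀)
  have hes : ∀ C, C ≠ B → t * Nat.card (MulAction.stabilizer T C) = Nat.card T := fun C hC => by
    rw [← horb B C hC, ← MulAction.index_stabilizer, Subgroup.index_mul_card]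
  have hstab : ∀ C, C ≠ B → (T1.filter fun g => g • C = C).card = e - 1 := by
    intro C hC
    have h1 : Nat.card (MulAction.stabilizer T C) = e :=
      Nat.eq_of_mul_eq_mul_left (by omega : 0 < t) ((hes C hC).trans (hes C₀ hC₀).symm)
    rw [← h1, show Nat.card (MulAction.stabilizer T C) =
        (Subtype.val '' (MulAction.stabilizer T C : Set T) : Set G).ncard by
      rw [Set.ncard_image_of_injective _ Subtype.val_injective]; exact Nat.card_coe_set_eq _,
      ← Set.ncard_coe_finset]
    rw [show (↑(T1.filter fun g => g • C = C) : Set G) =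
      (Subtype.val '' (MulAction.stabilizer T C : Set T)) \ {1} by
      ext g
      simp only [T1, Finset.coe_filter, Finset.mem_filter, Finset.mem_univ, true_and, Set.mem_setOf_eq,
        Set.mem_diff, Set.mem_singleton_iff, Set.mem_image, SetLike.mem_coe, MulAction.mem_stabilizer_iff]
      constructor
      · rintro ⟨⟨hg, hg1⟩, hgC⟩; exact ⟨⟨⟨g, hg⟩, hgC, rfl⟩, hg1⟩
      · rintro ⟨⟨g', hgC, rfl⟩, hg1⟩; exact ⟨⟨g'.2, hg1⟩, hgC⟩]
    rw [Set.ncard_diff_singleton_of_mem (show (1 : G) ∈ Subtype.val '' (MulAction.stabilizer T C : Set T) from ⟨1, Subgroup.one_mem _, rfl⟩)]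
  have hT1 : T1.card = Nat.card T - 1 := by
    rw [← Set.ncard_coe_finset, show (↑T1 : Set G) = (T : Set G) \ {1} by ext g; simp [T1],
      Set.ncard_diff_singleton_of_mem T.one_mem, ← Nat.card_coe_set_eq]
    rfl
  have hcount : (Nat.card P - 1) * (e - 1) = (Nat.card T - 1) * (k - 1) := by
    have h1 := Finset.sum_card_bipartiteAbove_eq_sum_card_bipartiteBelow
      (r := fun (g : G) (C : L) => g • C = C) (s := T1) (t := E)
    simp only [Finset.bipartiteAbove, Finset.bipartiteBelow] at h1
    rw [Finset.sum_congr rfl hfixg, Finset.sum_congr rfl fun C hC => hstab C (by simpa [E] using hC),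
      Finset.sum_const, Finset.sum_const, smul_eq_mul, smul_eq_mul, hT1, hcardE] at h1
    exact h1.symm
  have hkey : k * (e - 1) = l * (Nat.card T - 1) := by
    have hk1 : 0 < k - 1 := by have := h.two_le; omega
    refine Nat.eq_of_mul_eq_mul_right hk1 ?_
    rw [mul_assoc l, ← hcount, mul_right_comm, h.param, mul_assoc]
  have hlinesB : ∀ a, I a B → (E.filter fun C => I a C).card = k - 1 := by
    intro a ha
    rw [← Set.ncard_coe_finset, show (↑(E.filter fun C => I a C) : Set L) = {C | I a C} \ {B} by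
      ext C; simp [E, and_comm], Set.ncard_diff_singleton_of_mem (show B ∈ {C | I a C} from ha), h.card_lns]
  have htk : t ∣ k - 1 := by
    obtain ⟨a, ha⟩ : ∃ a, I a B := by
      apply Set.nonempty_of_ncard_ne_zero (s := {p | I p B})
      rw [h.card_pts]; have := h.two_le; omega
    rw [← hlinesB a ha, ← Set.ncard_coe_finset]
    refine dvd_ncard (T := T) _ (fun g C hC => ?_) (fun C hC => horb B C (by simp [E] at hC; exact hC.1))
    simp only [E, Finset.coe_filter, Finset.mem_filter, Finset.mem_univ, true_and, Set.mem_setOf_eq] at hC ⊢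
    refine ⟨fun e' => hC.1 ?_, h.mem_of_fix_point (h.el_fix g.2 ha) hC.2⟩
    have e'' : (g : G) • C = B := e'
    exact smul_left_cancel _ (e''.trans (h.el_smul g.2).symm)
  have he2 : 2 ≤ e := by
    by_contra hlt
    have h1 : Nat.card T - 1 = 0 := by
      rw [show e - 1 = 0 by omega, mul_zero] at hkey
      rcases mul_eq_zero.1 hkey.symm with h1 | h1
      · have := h.l_pos; omega
      · exact h1
    refine h.elGrp_ne_bot (h.axial B) (Subgroup.eq_bot_of_card_le _ ?_)
    show Nat.card T ≤ 1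
    omega
  have hrow : ∀ g ∈ T1, ∑ a : {p // I p B}, r g a = (k - 1) * l := by
    intro g hg
    have h1 := Finset.sum_card_bipartiteAbove_eq_sum_card_bipartiteBelow
      (r := fun (a : {p // I p B}) (C : L) => I a.1 C) (s := Finset.univ) (t := E.filter fun C => g • C = C)
    simp only [Finset.bipartiteAbove, Finset.bipartiteBelow, Finset.filter_filter] at h1
    rw [show ∑ a : {p // I p B}, r g a = _ from h1, Finset.sum_congr rfl (fun C hC => show _ = l from ?_),
      Finset.sum_const, smul_eq_mul, hfixg g hg]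
    simp only [E, Finset.mem_filter, Finset.mem_univ, true_and] at hC
    rw [← Set.ncard_coe_finset, ← Set.ncard_image_of_injective _ Subtype.val_injective, ← h.card_meet C B hC.1]
    congr 1
    ext p
    simp [and_comm]
  have hcol : ∀ a, I a B → ∑ g ∈ T1, r g a = (k - 1) * (e - 1) := by
    intro a ha
    have h1 := Finset.sum_card_bipartiteAbove_eq_sum_card_bipartiteBelow
      (r := fun (g : G) (C : L) => g • C = C) (s := T1) (t := E.filter fun C => I a C)
    simp only [Finset.bipartiteAbove, Finset.bipartiteBelow, Finset.filter_filter] at h1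
    rw [show ∑ g ∈ T1, r g a = _ from (Finset.sum_congr rfl fun g _ => by
      simp only [r, and_comm]).trans h1,
      Finset.sum_congr rfl (fun C hC => hstab C (by simp [E] at hC; exact hC.1)), Finset.sum_const, smul_eq_mul,
      hlinesB a ha]
  -- the rank inequality
  let M : ({p // I p B} → ℚ) →ₗ[ℚ] (T1 → ℚ) :=
    { toFun := fun y g => ∑ a : {p // I p B}, (r g a : ℚ) * y a
      map_add' := fun y z => by funext g; simp [mul_add, Finset.sum_add_distrib]
      map_smul' := fun c y => by funext g; simp [Finset.mul_sum, mul_left_comm] }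
  have hM : Function.Injective M := by
    rw [← LinearMap.ker_eq_bot, LinearMap.ker_eq_bot']
    intro y hy
    have hy' : ∀ g ∈ T1, ∑ a : {p // I p B}, (r g a : ℚ) * y a = 0 := fun g hg => congrFun hy ⟨g, hg⟩
    have hsum : ∑ a, y a = 0 := by
      have h1 : ∑ g ∈ T1, ∑ a : {p // I p B}, (r g a : ℚ) * y a = 0 := Finset.sum_eq_zero hy'
      rw [Finset.sum_comm] at h1
      simp only [← Finset.sum_mul] at h1
      rw [Finset.sum_congr rfl (fun a _ => by rw [← Nat.cast_sum, hcol a.1 a.2]), ← Finset.mul_sum] at h1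
      refine (mul_eq_zero.1 h1).resolve_left ?_
      have := h.two_le
      exact_mod_cast Nat.mul_ne_zero (by omega) (by omega)
    by_contra hy0
    obtain ⟨a, ha⟩ : ∃ a, y a ≠ 0 := Function.ne_iff.1 hy0
    let A : Subgroup G := MulAction.stabilizer G B ⊓ MulAction.stabilizer G (a : P)
    let act : A → {p // I p B} → {p // I p B} := fun g p =>
      ⟨(g : G) • p.1, h.mem_of_fix_line g.2.1 p.2⟩
    have hact : ∀ g, Function.Bijective (act g) := fun g =>
      Finite.injective_iff_bijective.1 fun p q e => Subtype.ext (smul_left_cancel _ (congrArg Subtype.val e))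
    let Y : {p // I p B} → ℚ := fun b => ∑ g : A, y (act g b)
    have hYa : Y a = Fintype.card A * y a := by
      have : ∀ g : A, act g a = a := fun g => Subtype.ext g.2.2
      simp [Y, this]
    have hYsum : ∑ b, Y b = 0 := by
      simp only [Y]
      rw [Finset.sum_comm]
      refine Finset.sum_eq_zero fun g _ => ?_
      rw [(hact g).sum_comp y, hsum]
    have hYc : ∀ b c, b ≠ a → c ≠ a → Y b = Y c := by
      intro b c hb hc
      obtain ⟨g, hgB, hga, hgb⟩ := h.two_trans_block (fun e => hb (Subtype.ext e.symm))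
        (fun e => hc (Subtype.ext e.symm)) a.2 b.2 a.2 c.2
      refine (Fintype.sum_equiv (Equiv.mulRight (⟨g, hgB, hga⟩ : A)) _ _ fun u => ?_).symm
      show y (act u c) = y (act (u * ⟨g, hgB, hga⟩) b)
      congr 1
      refine Subtype.ext ?_
      show (u : G) • c.1 = ((u : G) * g) • b.1
      rw [mul_smul, hgb]
    have hMY : ∀ g ∈ T1, ∑ b : {p // I p B}, (r g b : ℚ) * Y b = 0 := by
      intro g hg
      simp only [T1, Finset.mem_filter, Finset.mem_univ, true_and] at hg
      simp only [Y, Finset.mul_sum]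
      rw [Finset.sum_comm]
      refine Finset.sum_eq_zero fun u _ => ?_
      have hu : (u : G) • B = B := u.2.1
      have hconj : (u : G) * g * (u : G)⁻¹ ∈ T1 := by
        simp only [T1, Finset.mem_filter, Finset.mem_univ, true_and]
        have := h.el_conj_mem hg.1 (u : G)
        rw [hu] at this
        exact ⟨this, fun e => hg.2 (conj_eq_one_iff.1 e)⟩
      rw [← hy' _ hconj, ← (hact u).sum_comp (fun c => (r ((u : G) * g * (u : G)⁻¹) c.1 : ℚ) * y c)]
      refine Finset.sum_congr rfl fun b _ => ?_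
      congr 2
      refine Finset.card_equiv (MulAction.toPerm (u : G)) fun C => ?_
      simp only [Finset.mem_filter, E, Finset.mem_univ, true_and, MulAction.toPerm_apply, act]
      refine and_congr ⟨fun hC e => hC (smul_left_cancel _ (e.trans hu.symm)), fun hC e => hC (by rw [e, hu])⟩
        (and_congr ?_ ?_)
      · rw [mul_smul, mul_smul, inv_smul_smul]
        exact ⟨fun e => by rw [e], fun e => smul_left_cancel _ e⟩
      · exact (h.compat (u : G) b.1 C).symm
    obtain ⟨g, hg⟩ : ∃ g, g ∈ T1 := by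
      refine Finset.card_pos.1 ?_
      rw [hT1]
      have h1 := hes C₀ hC₀
      change t * e = _ at h1
      have : 2 * 2 ≤ t * e := Nat.mul_le_mul ht he2
      omega
    obtain ⟨b, hb⟩ : ∃ b : {p // I p B}, b ≠ a := by
      haveI : Nontrivial {p // I p B} := Finite.one_lt_card_iff_nontrivial.1 (by
        rw [← Set.coe_setOf, Nat.card_coe_set_eq, h.card_pts]; have := h.two_le; omega)
      exact exists_ne a
    have hothers : ∀ f : {p // I p B} → ℚ, ∑ c, f c = f a + ∑ c ∈ Finset.univ.erase a, f c :=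
      fun f => (Finset.add_sum_erase _ _ (Finset.mem_univ a)).symm
    have hk : ((Finset.univ.erase a).card : ℚ) = (k : ℚ) - 1 := by
      rw [Finset.card_erase_of_mem (Finset.mem_univ a), Finset.card_univ, ← Nat.card_eq_fintype_card,
        ← Set.coe_setOf, Nat.card_coe_set_eq, h.card_pts, Nat.cast_sub (by have := h.two_le; omega)]
      simp
    rw [hothers, Finset.sum_congr rfl (fun c hc => hYc c b (Finset.ne_of_mem_erase hc) hb), Finset.sum_const,
      nsmul_eq_mul, hk] at hYsum
    have h1 := hMY g hg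
    have h2 : ∑ c : {p // I p B}, (r g c : ℚ) = ((k : ℚ) - 1) * l := by
      rw [← Nat.cast_sum, hrow g hg, Nat.cast_mul, Nat.cast_sub (by have := h.two_le; omega)]
      simp
    rw [hothers, Finset.sum_congr rfl (fun c hc => by rw [hYc c b (Finset.ne_of_mem_erase hc) hb]),
      ← Finset.sum_mul] at h1
    rw [hothers] at h2
    have hYane : Y a ≠ 0 := by
      rw [hYa]; exact mul_ne_zero (Nat.cast_ne_zero.2 Fintype.card_ne_zero) ha
    have hb0 : Y b ≠ 0 := fun e => hYane (by rw [e, mul_zero, add_zero] at hYsum; exact hYsum)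
    have h3 : Y b * ((k : ℚ) * (r g a : ℚ) - ((k : ℚ) - 1) * l) = 0 := by
      linear_combination (r g a : ℚ) * hYsum - h1 + Y b * h2
    have h4 : k * r g a = (k - 1) * l := by
      have h5 := (mul_eq_zero.1 h3).resolve_left hb0
      have h6 : ((k * r g a : ℕ) : ℚ) = (((k - 1) * l : ℕ) : ℚ) := by
        push_cast [Nat.cast_sub (show 1 ≤ k by have := h.two_le; omega)]
        linarith
      exact_mod_cast h6
    have hcop : Nat.Coprime k (k - 1) := by
      have h7 : 1 ≤ k := by have := h.two_le; omega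
      exact (Nat.coprime_self_sub_right h7).2 (Nat.coprime_one_right k)
    have := Nat.le_of_dvd h.l_pos (hcop.dvd_of_dvd_mul_left ⟨r g a, h4.symm⟩)
    have := h.l_lt
    omega
  have hkle : k ≤ Nat.card T - 1 := by
    have h1 := LinearMap.finrank_le_finrank_of_injective hM
    simp only [Module.finrank_pi, Fintype.card_coe] at h1
    rwa [← Nat.card_eq_fintype_card, ← Set.coe_setOf, Nat.card_coe_set_eq, h.card_pts, hT1] at h1
  -- arithmetic
  have hse : t * e = Nat.card T := hes C₀ hC₀
  obtain ⟨q, hq⟩ := htk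
  obtain ⟨hku, hdu⟩ := arith ht he2 h.l_pos h.l_lt hq (by rw [hse]; exact hkey) (by rw [hse]; exact hkle)
  refine ⟨fun x y hx hy => ?_, t, ht, hku⟩
  have hoff : ∀ (g : T), ¬ I ((g : G) • x) B := fun g e' => hx ((h.mem_fix_iff (h.el_smul g.2)).1 e')
  have hcard : Nat.card {p // ¬ I p B} = Nat.card T := by
    have h1 := Set.ncard_add_ncard_compl {p | I p B} (Set.toFinite _) (Set.toFinite _)
    rw [h.card_pts, ← Nat.card_coe_set_eq] at h1
    have h2 := h.param''
    rw [hdu, show k - 1 = l * t by omega, mul_assoc, hse] at h2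
    have h4 := Nat.eq_of_mul_eq_mul_left h.l_pos h2
    have : Nat.card {p // ¬ I p B} = Nat.card P - k := by
      rw [show Nat.card {p // ¬ I p B} = Nat.card ({p | I p B}ᶜ : Set P) from rfl]; omega
    omega
  let orbmap : T → {p // ¬ I p B} := fun g => ⟨(g : G) • x, hoff g⟩
  have hbij : Function.Bijective orbmap := by
    refine (Nat.bijective_iff_injective_and_card _).2 ⟨fun g g' e' => ?_, hcard.symm⟩
    have := congrArg Subtype.val e'
    refine (inv_mul_eq_one.1 (Subtype.ext (h.el_free (g'⁻¹ * g).2 hx ?_) : g'⁻¹ * g = 1)).symm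
    show ((g' : G)⁻¹ * (g : G)) • x = x
    rw [mul_smul, show (g : G) • x = (g' : G) • x from this, inv_smul_smul]
  obtain ⟨g, hg⟩ := hbij.2 ⟨y, hy⟩
  exact ⟨g, g.2, congrArg Subtype.val hg⟩

end Unf

end Cfsg.Agent.ItoDesign
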